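import Cfsg.Agent.RootSub.Transv.Basic

/-!
# Irreducible transvection groups with one functional at each centre

The centres exhaust the space and the functionals come from an alternating form.
-/

set_option autoImplicit false

namespace Cfsg.Agent.RootSub.Transv

variable {F : Type*} [Field F] {W : Type*} [AddCommGroup W] [Module F W] [FiniteDimensional F W]
variable {H : Subgroup (W ≃ₗ[F] W)} (hsc : ScalarClosed H)

include hsc in
/-- The alternating case. -/
theorem exists_alt_form (h2 : (2 : F) ≠ 0) (hirr : TvIrred H)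
    (hone : ∀ v : W, v ≠ 0 → Module.finrank F (fnl H v) ≤ 1) {x₁ : W} {φ₁ : Module.Dual F W}
    (hx₁ : x₁ ≠ 0) (hφ₁ : φ₁ ≠ 0) (h₁ : IsTv H x₁ φ₁) :
    ∃ B : LinearMap.BilinForm F W, B.IsAlt ∧ B.Nondegenerate ∧
      (∀ (v : W) (c : F), IsTv H v (c • B v)) ∧
      ∀ (v : W) φ, v ≠ 0 → IsTv H v φ → ∃ c : F, φ = c • B v := by
  classical
  let P : Set W := {v | v ≠ 0 ∧ ∃ φ, φ ≠ 0 ∧ IsTv H v φ}
  let f : W → Module.Dual F W := fun v => if h : v ∈ P then h.2.choose else 0
  have hf : ∀ {v}, v ∈ P → f v ≠ 0 ∧ IsTv H v (f v) := fun {v} hv => by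
    simp only [f, dif_pos hv]; exact hv.2.choose_spec
  have hself : ∀ {v}, v ∈ P → f v v = 0 := fun hv => (hf hv).2.1
  have huniq : ∀ {v φ}, v ∈ P → IsTv H v φ → ∃ c : F, φ = c • f v := by
    intro v φ hv hφ
    have hmem : F ∙ f v ≤ fnl H v := by
      rw [Submodule.span_singleton_le_iff_mem]; exact (mem_fnl hsc).2 (hf hv).2
    have he := Submodule.eq_of_le_of_finrank_le hmem
      (by rw [finrank_span_singleton (hf hv).1]; exact hone v hv.1)
    have hφm : φ ∈ F ∙ f v := he ▸ (mem_fnl hsc).2 hφ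
    obtain ⟨c, hc⟩ := Submodule.mem_span_singleton.1 hφm
    exact ⟨c, hc.symm⟩
  -- orthogonality is symmetric
  have sym : ∀ {x y}, x ∈ P → y ∈ P → f x y ≠ 0 → f y x ≠ 0 := by
    intro x y hx hy h h0
    obtain ⟨c, hc⟩ := huniq hx ((hf hx).2.comm_unit hsc (hf hy).2 h0 h)
    have := congrArg (fun ω => ω y) hc
    simp only [hself hy, LinearMap.smul_apply, smul_eq_mul, zero_eq_mul, h, or_false] at this
    exact (hf hy).1 (by rw [hc, this, zero_smul])
  have hmv : ∀ {x y}, x ∈ P → y ∈ P → f y x ≠ 0 → ∀ a : F, x + a • y ∈ P := by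
    intro x y hx hy h a
    rcases eq_or_ne a 0 with rfl | ha
    · simpa using hx
    set c := a / f y x
    have hc : c ≠ 0 := div_ne_zero ha h
    have ht := (hf hx).2.conj_tv (hsc _ _ (hf hy).2 c)
    rw [show (c • f y) x = a by simp [c, h]] at ht
    refine ⟨fun h0 => h ?_, _, fun h0 => ?_, ht⟩
    · rw [eq_neg_of_add_eq_zero_left h0, map_neg, map_smul, hself hy, smul_zero, neg_zero]
    · have := congrArg (fun ω => ω x) h0
      simp [hself hx, c, h, ha, sym hy hx h] at this
  have hx₁P : x₁ ∈ P := ⟨hx₁, φ₁, hφ₁, h₁⟩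
  have hmem : ∀ {z ω}, IsTv H z ω → z ≠ 0 → ω ≠ 0 → z ∈ P := fun h hz hω => ⟨hz, _, hω, h⟩
  have hspanP : Submodule.span F P = ⊤ := by
    rcases hirr (Submodule.span F P) (fun z ω hω v _ => by
      rcases eq_or_ne z 0 with rfl | hz
      · simp
      rcases eq_or_ne ω 0 with rfl | hω0
      · simp
      exact Submodule.smul_mem _ _ (Submodule.subset_span (hmem hω hz hω0))) with h | h
    · exact absurd ((Submodule.mem_bot F).1 (h ▸ Submodule.subset_span hx₁P)) hx₁
    · exact h
  have hrad : ∀ v : W, v ≠ 0 → ∃ w ∈ P, f w v ≠ 0 := by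
    intro v hv
    by_contra hno
    push Not at hno
    let Rad : Submodule F W := ⨅ w ∈ P, LinearMap.ker (f w)
    have hinv : ∀ z ω, IsTv H z ω → ∀ u ∈ Rad, ω u • z ∈ Rad := by
      intro z ω hω u hu
      rcases eq_or_ne z 0 with rfl | hz
      · simp
      rcases eq_or_ne ω 0 with rfl | hω0
      · simp
      have hzP := hmem hω hz hω0
      obtain ⟨c, rfl⟩ := huniq hzP hω
      have : f z u = 0 := (Submodule.mem_iInf _).1 ((Submodule.mem_iInf _).1 hu z) hzP
      simp [this]
    rcases hirr Rad hinv with h | h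
    · refine hv ((Submodule.mem_bot F).1 (h ▸ ?_))
      simp only [Rad, Submodule.mem_iInf, LinearMap.mem_ker]
      exact hno
    · refine (hf hx₁P).1 (LinearMap.ext fun u => ?_)
      exact (Submodule.mem_iInf _).1 ((Submodule.mem_iInf _).1 (h ▸ Submodule.mem_top : u ∈ Rad) x₁) hx₁P
  -- a common neighbour gives the sum
  have hsum1 : ∀ {x y z}, x ∈ P → y ∈ P → z ∈ P → f z x ≠ 0 → f z y ≠ 0 → f y x = 0 →
      f z (x + y) ≠ 0 → x + y ∈ P := by
    intro x y z hx hy hz h1 h2' h3 h4
    have hw := hmv hx hz h1 1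
    rw [one_smul] at hw
    have hv := hmv hw hy (by rw [map_add, h3, zero_add]; exact sym hz hy h2') 1
    rw [one_smul] at hv
    have hzv : f z (x + z + y) ≠ 0 := by
      rwa [show x + z + y = x + y + z by abel, map_add, hself hz, add_zero]
    have := hmv hv hz hzv (-1)
    convert this using 1
    rw [neg_one_smul]; abel
  have hsum2 : ∀ {x y z w}, x ∈ P → y ∈ P → z ∈ P → w ∈ P → f z x ≠ 0 → f z y ≠ 0 → f y x = 0 →
      f w x ≠ 0 → f w y = 0 → x + y ∈ P := by
    intro x y z w hx hy hz hw h1 h2' h3 hwx hwy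
    obtain ⟨z1, hz1, hxz, hyz, hwz⟩ :
        ∃ z1 ∈ P, f x z1 ≠ 0 ∧ f y z1 ≠ 0 ∧ f w z1 ≠ 0 := by
      by_cases hwz : f w z = 0
      · refine ⟨z + (1 : F) • x, hmv hz hx (sym hz hx h1) 1, ?_, ?_, ?_⟩
        · simp [hself hx, sym hz hx h1]
        · simp [h3, sym hz hy h2']
        · simp [hwz, hwx]
      · exact ⟨z, hz, sym hz hx h1, sym hz hy h2', hwz⟩
    by_cases hz1s : f z1 (x + y) = 0
    swap
    · exact hsum1 hx hy hz1 (sym hx hz1 hxz) (sym hy hz1 hyz) h3 hz1s
    have hyw : f y w = 0 := by_contra fun h => sym hy hw h hwy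
    obtain ⟨d, hd, hd1⟩ : ∃ d : F, d ≠ 0 ∧ f x (z1 + (d * f w z1) • w) ≠ 0 := by
      by_contra hno
      push Not at hno
      have a1 := hno 1 one_ne_zero
      have a2 := hno (-1) (neg_ne_zero.2 one_ne_zero)
      simp only [map_add, map_smul, smul_eq_mul] at a1 a2
      refine hxz ((mul_eq_zero.1 (?_ : (2 : F) * f x z1 = 0)).resolve_left h2)
      linear_combination a1 + a2
    set z' := z1 + (d * f w z1) • w with hz'
    have hz'P : z' ∈ P := hmv hz1 hw hwz _
    have ht := (hf hz1).2.conj_tv (hsc _ _ (hf hw).2 d)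
    rw [show (d • f w) z1 = d * f w z1 by simp, ← hz'] at ht
    obtain ⟨c, hc⟩ := huniq hz'P ht
    have hne : f z' (x + y) ≠ 0 := by
      intro h0
      have := congrArg (fun ω => ω (x + y)) hc
      rw [LinearMap.smul_apply, h0, smul_zero] at this
      simp only [LinearMap.sub_apply, LinearMap.smul_apply, smul_eq_mul, map_add, hwy] at this
      rw [map_add] at hz1s
      refine mul_ne_zero (mul_ne_zero (sym hw hz1 hwz) hd) hwx ?_
      linear_combination hz1s - this
    have hyz' : f y z' ≠ 0 := by simpa [hz', hyw] using hyz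
    exact hsum1 hx hy hz'P (sym hx hz'P hd1) (sym hy hz'P hyz') h3 hne
  have hsum : ∀ {x y z}, x ∈ P → y ∈ P → z ∈ P → f z x ≠ 0 → f z y ≠ 0 → f y x = 0 →
      x + y ≠ 0 → x + y ∈ P := by
    intro x y z hx hy hz h1 h2' h3 hxy
    by_cases h4 : f z (x + y) = 0
    swap
    · exact hsum1 hx hy hz h1 h2' h3 h4
    obtain ⟨w, hw, hwne⟩ := hrad _ hxy
    by_cases hwx : f w x = 0
    · rw [add_comm]
      refine hsum2 hy hx hz hw h2' h1 (by_contra fun h => sym hx hy h h3) ?_ hwx
      simpa [hwx] using hwne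
    by_cases hwy : f w y = 0
    · exact hsum2 hx hy hz hw h1 h2' h3 hwx hwy
    · exact hsum1 hx hy hw hwx hwy h3 hwne
  -- any two centres have a common neighbour or are neighbours
  have hdist : ∀ {x y}, x ∈ P → y ∈ P → f y x ≠ 0 ∨ ∃ z ∈ P, f z x ≠ 0 ∧ f z y ≠ 0 := by
    intro x y hx hy
    let S : Set W := {v | v ∈ P ∧ (f v x ≠ 0 ∨ ∃ z ∈ P, f z x ≠ 0 ∧ f z v ≠ 0)}
    have hstep : ∀ {v v'}, v ∈ S → v' ∈ P → f v' v ≠ 0 → v' ∈ S := by
      rintro v v' ⟨hv, h⟩ hv' hne
      refine ⟨hv', ?_⟩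
      rcases h with h | ⟨z, hz, hzx, hzv⟩
      · exact Or.inr ⟨v, hv, h, sym hv' hv hne⟩
      by_cases c1 : f v' x = 0
      swap
      · exact Or.inl c1
      by_cases c2 : f z v' = 0
      swap
      · exact Or.inr ⟨z, hz, hzx, c2⟩
      by_cases c3 : f v x = 0
      swap
      · exact Or.inr ⟨v, hv, c3, sym hv' hv hne⟩
      have hvz := hmv hv hz hzv 1
      rw [one_smul] at hvz
      have hxv : f x v = 0 := by_contra fun h => sym hx hv h c3
      have hv'z : f v' z = 0 := by_contra fun h => sym hv' hz h c2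
      refine Or.inr ⟨v + z, hvz, sym hx hvz ?_, sym hv' hvz ?_⟩
      · rw [map_add, hxv, zero_add]; exact sym hz hx hzx
      · rw [map_add, hv'z, add_zero]; exact hne
    have hspanS : Submodule.span F S = ⊤ := by
      rcases hirr (Submodule.span F S) (fun z ω hω v hv => by
        rcases eq_or_ne z 0 with rfl | hz
        · simp
        by_cases hall : ∀ u ∈ S, ω u = 0
        · have : ω v = 0 := (Submodule.span_le.2 hall : Submodule.span F S ≤ LinearMap.ker ω) hv
          simp [this]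
        push Not at hall
        obtain ⟨u, hu, hne⟩ := hall
        have hzP := hmem hω hz fun h0 => hne (by rw [h0]; rfl)
        obtain ⟨c, rfl⟩ := huniq hzP hω
        exact Submodule.smul_mem _ _ (Submodule.subset_span
          (hstep hu hzP fun h0 => hne (by simp [h0])))) with h | h
      · exfalso
        obtain ⟨u, hu, hne⟩ : ∃ u ∈ P, f x u ≠ 0 := by
          by_contra hall
          push Not at hall
          refine (hf hx).1 (LinearMap.ker_eq_top.1 (eq_top_iff.2 ?_))
          rw [← hspanP]; exact Submodule.span_le.2 hall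
        exact hu.1 ((Submodule.mem_bot F).1 (h ▸ Submodule.subset_span
          (show u ∈ S from ⟨hu, Or.inl (sym hx hu hne)⟩)))
      · exact h
    obtain ⟨c, hc, hne⟩ : ∃ c ∈ S, f y c ≠ 0 := by
      by_contra hall
      push Not at hall
      refine (hf hy).1 (LinearMap.ker_eq_top.1 (eq_top_iff.2 ?_))
      rw [← hspanS]; exact Submodule.span_le.2 hall
    exact (hstep hc hy hne).2
  -- every nonzero vector is a centre
  have hall : ∀ v : W, v ≠ 0 → v ∈ P := by
    have hsmul : ∀ {v} {a : F}, a ≠ 0 → v ∈ P → a • v ∈ P := fun {v a} ha hv =>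
      ⟨smul_ne_zero ha hv.1, f v, (hf hv).1, (hf hv).2.smul_left hsc a⟩
    let C : Submodule F W :=
      { carrier := {v | v = 0 ∨ v ∈ P}
        add_mem' := fun {p q} hp hq => by
          rcases hp with rfl | hp
          · rwa [zero_add]
          rcases hq with rfl | hq
          · rw [add_zero]; exact Or.inr hp
          rcases eq_or_ne (p + q) 0 with h | h
          · exact Or.inl h
          right
          by_cases hqp : f q p = 0
          · obtain ⟨z, hz, h1, h2'⟩ := (hdist hp hq).resolve_left (not_not_intro hqp)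
            exact hsum hp hq hz h1 h2' hqp h
          · simpa using hmv hp hq hqp 1
        zero_mem' := Or.inl rfl
        smul_mem' := fun a v hv => by
          rcases eq_or_ne a 0 with rfl | ha
          · exact Or.inl (zero_smul F v)
          rcases hv with rfl | hv
          · exact Or.inl (smul_zero a)
          · exact Or.inr (hsmul ha hv) }
    intro v hv
    have hC : C = ⊤ := eq_top_iff.2 (hspanP ▸ Submodule.span_le.2 fun u hu => Or.inr hu)
    exact ((hC ▸ Submodule.mem_top : v ∈ C) : v = 0 ∨ v ∈ P).resolve_left hv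
  -- the form
  set φ := f x₁
  let N : Set W := {v | φ v ≠ 0}
  have hNP : ∀ {v}, v ∈ N → v ∈ P := fun {v} hv => hall v fun h0 => hv (by rw [h0, map_zero])
  have hNx : ∀ {v}, v ∈ N → f v x₁ ≠ 0 := fun hv => sym hx₁P (hNP hv) hv
  let ψ : W → Module.Dual F W := fun v => (-φ v / f v x₁) • f v
  have hψx : ∀ {v}, v ∈ N → ψ v x₁ = -φ v := fun hv => by simp [ψ, hNx hv]
  have hψc : ∀ {v}, v ∈ N → -φ v / f v x₁ ≠ 0 := fun hv => div_ne_zero (neg_ne_zero.2 hv) (hNx hv)
  have hψt : ∀ {v}, v ∈ N → IsTv H v (ψ v) := fun hv => hsc _ _ (hf (hNP hv)).2 _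
  have hskew : ∀ {y t}, y ∈ N → t ∈ N → ψ y t = -ψ t y := by
    intro y t hy ht
    by_cases h0 : f t y = 0
    · have h0' : f y t = 0 := by_contra fun h => sym (hNP hy) (hNP ht) h h0
      simp [ψ, h0, h0']
    have hty : ψ t y ≠ 0 := by simpa [ψ] using mul_ne_zero (hψc ht) h0
    set a := φ t / ψ t y
    have ha : a ≠ 0 := div_ne_zero ht hty
    set c := -a / φ y
    have h := (hf hx₁P).2.conj_tv (hsc _ _ (hψt hy) c)
    rw [show (c • ψ y) x₁ = a by
      rw [LinearMap.smul_apply, hψx hy, smul_eq_mul]; rw [mul_neg, div_mul_cancel₀ _ hy, neg_neg]] at h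
    have hv0 : x₁ + a • y ≠ 0 := fun e => by
      have := congrArg φ e
      simp [φ, hself hx₁P, ha] at this
      exact hy this
    have hvP := hall _ hv0
    obtain ⟨d, hd⟩ := huniq hvP h
    have hv : f t (x₁ + a • y) = 0 := by
      have e : ψ t (x₁ + a • y) = 0 := by
        rw [map_add, map_smul, hψx ht, smul_eq_mul]; simp only [a]; field_simp; ring
      simpa [ψ, hψc ht] using e
    have hvt : f (x₁ + a • y) t = 0 := by_contra fun h => sym hvP (hNP ht) h hv
    have := congrArg (fun ω => ω t) hd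
    simp only [LinearMap.sub_apply, LinearMap.smul_apply, smul_eq_mul, hvt, mul_zero] at this
    have hc' : φ y * c = -a := mul_div_cancel₀ _ hy
    have ha' : a * ψ t y = φ t := div_mul_cancel₀ _ hty
    refine mul_left_cancel₀ ha ?_
    linear_combination this + (ψ y t) * hc' + ha'
  obtain ⟨y₀, hy₀⟩ : ∃ y, y ∈ N := by
    by_contra hno
    push Not at hno
    exact (hf hx₁P).1 (LinearMap.ext fun v => not_not.1 (hno v))
  have hspanN : ⊤ ≤ Submodule.span F N := by
    intro v _
    by_cases hv : φ v = 0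
    · have h : v + y₀ ∈ N := by show φ (v + y₀) ≠ 0; rw [map_add, hv, zero_add]; exact hy₀
      simpa using sub_mem (Submodule.subset_span (R := F) h) (Submodule.subset_span (R := F) hy₀)
    · exact Submodule.subset_span hv
  let b := Module.Basis.ofSpan hspanN
  have hb : ∀ i, b i ∈ N := fun i => Module.Basis.ofSpan_subset hspanN ⟨i, rfl⟩
  let B : LinearMap.BilinForm F W := b.constr F fun i => ψ (b i)
  have hBN : ∀ {y}, y ∈ N → B y = ψ y := by
    intro y hy
    refine b.ext fun i => ?_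
    have e : ∀ v : W, B v (b i) = -ψ (b i) v := by
      intro v
      have hlin : (LinearMap.applyₗ (b i)).comp B = -ψ (b i) := by
        refine b.ext fun j => ?_
        show B (b j) (b i) = -ψ (b i) (b j)
        rw [show B (b j) = ψ (b j) from b.constr_basis F _ j]
        exact hskew (hb j) (hb i)
      exact LinearMap.congr_fun hlin v
    rw [e]
    exact (hskew hy (hb i)).symm
  have hmain : ∀ v : W, v ≠ 0 → B v ≠ 0 ∧ IsTv H v (B v) := by
    intro v hv
    by_cases hvN : v ∈ N
    · rw [hBN hvN]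
      exact ⟨smul_ne_zero (hψc hvN) (hf (hNP hvN)).1, hψt hvN⟩
    have hvP := hall v hv
    have hvn : φ v = 0 := not_not.1 hvN
    obtain ⟨y, hy, hne⟩ : ∃ y ∈ N, f v y ≠ 0 := by
      by_contra hno
      push Not at hno
      exact (hf hvP).1 (LinearMap.ker_eq_top.1
        (eq_top_iff.2 (hspanN.trans (Submodule.span_le.2 hno))))
    have hyv : ψ y v ≠ 0 := by simpa [ψ] using mul_ne_zero (hψc hy) (sym hvP (hNP hy) hne)
    set g := (-ψ y v / f v y) • f v with hg
    have hgy : g y = -ψ y v := by simp [hg, hne]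
    have hgt : IsTv H v g := hsc _ _ (hf hvP).2 _
    have h := hgt.conj_tv (hsc _ _ (hψt hy) (ψ y v)⁻¹)
    rw [show ((ψ y v)⁻¹ • ψ y) v = 1 by simp [hyv], one_smul,
      show g - g y • ((ψ y v)⁻¹ • ψ y) = g + ψ y by simp [hgy, smul_smul, hyv]] at h
    have hN : v + y ∈ N := by show φ (v + y) ≠ 0; rw [map_add, hvn, zero_add]; exact hy
    obtain ⟨d, hd⟩ := huniq (hNP hN) h
    obtain ⟨d', hd'⟩ : ∃ d', g + ψ y = d' • B (v + y) := by
      refine ⟨d / (-φ (v + y) / f (v + y) x₁), ?_⟩
      rw [hd, hBN hN]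
      show _ = _ • ((-φ (v + y) / f (v + y) x₁) • f (v + y))
      rw [smul_smul, div_mul_cancel₀ _ (hψc hN)]
    have e1 : B (v + y) y = -ψ y v := by
      rw [hBN hN, hskew hN hy, map_add, (hψt hy).1, add_zero]
    have h' := congrArg (fun ω => ω y) hd'
    simp only [LinearMap.add_apply, hgy, (hψt hy).1, add_zero, LinearMap.smul_apply, smul_eq_mul,
      e1] at h'
    have hd1 : d' = 1 := (mul_left_eq_self₀.1 h'.symm).resolve_right (neg_ne_zero.2 hyv)
    rw [hd1, one_smul, map_add, hBN hy, add_left_inj] at hd'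
    rw [← hd']
    exact ⟨smul_ne_zero (div_ne_zero (neg_ne_zero.2 hyv) hne) (hf hvP).1, hgt⟩
  have hAlt : B.IsAlt := fun v => by
    rcases eq_or_ne v 0 with rfl | hv
    · simp
    · exact (hmain v hv).2.1
  refine ⟨B, hAlt, ?_, fun v c => ?_, fun v ω hv hω => ?_⟩
  · have hl : LinearMap.SeparatingLeft B := fun v hv => by
      by_contra h
      exact (hmain v h).1 (LinearMap.ext hv)
    exact ⟨hl, fun v hv => hl v fun u => by rw [← hAlt.neg_eq, hv, neg_zero]⟩
  · rcases eq_or_ne v 0 with rfl | hv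
    · simpa using IsTv.zero_right (H := H) (0 : W)
    · exact hsc _ _ (hmain v hv).2 c
  · obtain ⟨c, hc⟩ := huniq (hall v hv) hω
    obtain ⟨e, he⟩ := huniq (hall v hv) (hmain v hv).2
    have he0 : e ≠ 0 := fun h0 => (hmain v hv).1 (by rw [he, h0, zero_smul])
    exact ⟨c / e, by rw [he, smul_smul, div_mul_cancel₀ _ he0, hc]⟩

end Cfsg.Agent.RootSub.Transv
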