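import Cfsg.Agent.Linear.Transvection
import Cfsg.Agent.Forms.SympGen
import Cfsg.Agent.SympSub.Iso

/-!
# Transvections in a group of linear automorphisms

`IsTv H x φ`: the transvection `v ↦ v + φ v • x` lies in `H`.
-/

set_option autoImplicit false

namespace Cfsg.Agent.RootSub.Transv

variable {F : Type*} [Field F] {W : Type*} [AddCommGroup W] [Module F W]

variable (H : Subgroup (W ≃ₗ[F] W))

/-- The transvection with centre `x` and functional `φ` lies in `H`. -/
def IsTv (x : W) (φ : Module.Dual F W) : Prop :=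
  φ x = 0 ∧ ∃ g ∈ H, ∀ v, g v = v + φ v • x

/-- Scalar multiples of transvections of `H` lie in `H`. -/
def ScalarClosed : Prop := ∀ x φ, IsTv H x φ → ∀ c : F, IsTv H x (c • φ)

/-- No proper nonzero subspace is invariant under the transvections of `H`. -/
def TvIrred : Prop :=
  ∀ U : Submodule F W, (∀ x φ, IsTv H x φ → ∀ u ∈ U, φ u • x ∈ U) → U = ⊥ ∨ U = ⊤

/-- The functionals of the transvections with centre `x`. -/
def fnl (x : W) : Submodule F (Module.Dual F W) :=
  Submodule.span F {φ | IsTv H x φ}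

variable {H}

theorem isTv_of_mem {g : W ≃ₗ[F] W} (hg : g ∈ H) {x : W} {φ : Module.Dual F W} (h0 : φ x = 0)
    (h : ∀ v, g v = v + φ v • x) : IsTv H x φ := ⟨h0, g, hg, h⟩

theorem IsTv.zero_right (x : W) : IsTv H x 0 :=
  ⟨rfl, 1, one_mem H, fun v => by rw [LinearMap.zero_apply, zero_smul, add_zero]; rfl⟩

theorem IsTv.add {x : W} {φ ψ : Module.Dual F W} (h : IsTv H x φ) (h' : IsTv H x ψ) :
    IsTv H x (φ + ψ) := by
  obtain ⟨h0, g, hg, hgv⟩ := h
  obtain ⟨h0', g', hg', hgv'⟩ := h'
  refine ⟨by simp [h0, h0'], g * g', mul_mem hg hg', fun v => ?_⟩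
  show g (g' v) = _
  rw [hgv', hgv]
  simp [h0, h0', add_smul]
  abel

theorem IsTv.add_left {x y : W} {φ : Module.Dual F W} (h : IsTv H x φ) (h' : IsTv H y φ) :
    IsTv H (x + y) φ := by
  obtain ⟨h0, g, hg, hgv⟩ := h
  obtain ⟨h0', g', hg', hgv'⟩ := h'
  refine ⟨by simp [h0, h0'], g * g', mul_mem hg hg', fun v => ?_⟩
  show g (g' v) = _
  rw [hgv', hgv]
  simp [h0', smul_add]
  abel

theorem IsTv.neg {x : W} {φ : Module.Dual F W} (h : IsTv H x φ) : IsTv H x (-φ) := by
  obtain ⟨h0, g, hg, hgv⟩ := h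
  refine ⟨by simp [h0], g⁻¹, inv_mem hg, fun v => ?_⟩
  apply g.injective
  show g (g.symm v) = _
  rw [g.apply_symm_apply, hgv]
  simp [h0, add_smul]

theorem IsTv.conj {x : W} {φ : Module.Dual F W} (h : IsTv H x φ) {g : W ≃ₗ[F] W} (hg : g ∈ H) :
    IsTv H (g x) (φ.comp g.symm.toLinearMap) := by
  obtain ⟨h0, t, ht, htv⟩ := h
  refine ⟨by simp [h0], g * t * g⁻¹, mul_mem (mul_mem hg ht) (inv_mem hg), fun v => ?_⟩
  show g (t (g.symm v)) = _
  simp [htv]

theorem IsTv.smul_left (hsc : ScalarClosed H) {x : W} {φ : Module.Dual F W} (h : IsTv H x φ)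
    (c : F) : IsTv H (c • x) φ := by
  obtain ⟨-, g, hg, hgv⟩ := hsc x φ h c
  refine ⟨by simp [h.1], g, hg, fun v => ?_⟩
  rw [hgv, LinearMap.smul_apply, smul_eq_mul, smul_smul, mul_comm]

theorem IsTv.of_smul_left (hsc : ScalarClosed H) {x : W} {φ : Module.Dual F W} {c : F} (hc : c ≠ 0)
    (h : IsTv H (c • x) φ) : IsTv H x φ := by
  simpa [smul_smul, inv_mul_cancel₀ hc] using h.smul_left hsc c⁻¹

/-- Conjugating one transvection by another. -/
theorem IsTv.conj_tv {x y : W} {φ ψ : Module.Dual F W} (h : IsTv H x φ) (h' : IsTv H y ψ) :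
    IsTv H (x + ψ x • y) (φ - φ y • ψ) := by
  obtain ⟨h0', g, hg, hgv⟩ := h'
  have := h.conj hg
  rw [hgv] at this
  convert this using 1
  have hs : ∀ v, g.symm v = v - ψ v • y := fun v => by
    rw [LinearEquiv.symm_apply_eq, hgv]
    simp [h0']
  ext v
  simp [hs, mul_comm]

/-- The commutator of two transvections. -/
theorem IsTv.comm {x y : W} {φ ψ : Module.Dual F W} (h : IsTv H x φ) (h' : IsTv H y ψ)
    (h0 : ψ x = 0) : IsTv H x (φ y • ψ) := by
  have h1 := h.conj_tv h'
  rw [h0, zero_smul, add_zero] at h1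
  have := (h1.neg).add h
  convert this using 1
  abel

theorem IsTv.comm_unit (hsc : ScalarClosed H) {x y : W} {φ ψ : Module.Dual F W} (h : IsTv H x φ)
    (h' : IsTv H y ψ) (h0 : ψ x = 0) (h1 : φ y ≠ 0) : IsTv H x ψ := by
  simpa [smul_smul, inv_mul_cancel₀ h1] using hsc _ _ (h.comm h' h0) (φ y)⁻¹

theorem mem_fnl (hsc : ScalarClosed H) {x : W} {φ : Module.Dual F W} :
    φ ∈ fnl H x ↔ IsTv H x φ := by
  refine ⟨fun h => ?_, fun h => Submodule.subset_span h⟩
  induction h using Submodule.span_induction with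
  | mem x hx => exact hx
  | zero => exact IsTv.zero_right x
  | add p q _ _ hp hq => exact hp.add hq
  | smul c p _ hp => exact hsc _ _ hp c

/-- A subspace invariant under the transvections is invariant under the group they generate. -/
theorem map_mem_of_closure {S : Set (W ≃ₗ[F] W)}
    (hS : ∀ g ∈ S, ∃ (x : W) (φ : Module.Dual F W), φ x = 0 ∧ ∀ v, g v = v + φ v • x) {U : Submodule F W}
    (hU : ∀ g ∈ S, ∀ u ∈ U, g u ∈ U) {g : W ≃ₗ[F] W} (hg : g ∈ Subgroup.closure S) :
    ∀ u ∈ U, g u ∈ U := by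
  induction hg using Subgroup.closure_induction'' with
  | mem x hx => exact hU x hx
  | inv_mem x hx =>
    intro u hu
    obtain ⟨z, φ, h0, hz⟩ := hS x hx
    have e : x⁻¹ u = u - φ u • z := by
      show x.symm u = _
      rw [LinearEquiv.symm_apply_eq, hz]
      simp [h0]
    rw [e]
    have h1 := sub_mem (hU x hx u hu) hu
    rw [hz, add_sub_cancel_left] at h1
    exact sub_mem hu h1
  | one => exact fun u hu => hu
  | mul x y _ _ hx hy => exact fun u hu => hx _ (hy u hu)

section Generation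

variable [FiniteDimensional F W]

/-- With the transvections of a basis `H` contains every map of determinant one. -/
theorem mem_of_det_eq_one {ι : Type*} [Fintype ι] [DecidableEq ι] [Nontrivial ι]
    (b : Module.Basis ι F W) (hH : ∀ i j, i ≠ j → ∀ c : F, IsTv H (b i) (c • b.coord j))
    {g : W ≃ₗ[F] W} (hg : LinearMap.det (g : W →ₗ[F] W) = 1) : g ∈ H := by
  let e : Matrix.SpecialLinearGroup ι F →* (W ≃ₗ[F] W) :=
    { toFun := fun A => LinearEquiv.ofLinearMap (Matrix.toLin b b A.1) (Matrix.toLin b b (A⁻¹).1)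
        (by rw [← Matrix.toLin_mul b b b, ← Matrix.SpecialLinearGroup.coe_mul, mul_inv_cancel,
          Matrix.SpecialLinearGroup.coe_one, Matrix.toLin_one])
        (by rw [← Matrix.toLin_mul b b b, ← Matrix.SpecialLinearGroup.coe_mul, inv_mul_cancel,
          Matrix.SpecialLinearGroup.coe_one, Matrix.toLin_one])
      map_one' := by
        apply LinearEquiv.ext; intro v
        show Matrix.toLin b b (1 : Matrix.SpecialLinearGroup ι F).1 v = v
        rw [Matrix.SpecialLinearGroup.coe_one, Matrix.toLin_one]; rfl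
      map_mul' := fun A B => by
        apply LinearEquiv.ext; intro v
        show Matrix.toLin b b (A * B).1 v = Matrix.toLin b b A.1 (Matrix.toLin b b B.1 v)
        rw [Matrix.SpecialLinearGroup.coe_mul, Matrix.toLin_mul b b b]; rfl }
  have htop : H.comap e = ⊤ := by
    refine Cfsg.Agent.Linear.eq_top_of_transvection_mem _ fun i j hij c => ?_
    obtain ⟨-, t, ht, htv⟩ := hH i j hij c
    rw [Subgroup.mem_comap]
    convert ht using 1
    apply LinearEquiv.toLinearMap_injective
    refine b.ext fun k => ?_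
    show Matrix.toLin b b _ (b k) = t (b k)
    rw [Matrix.toLin_self, htv]
    simp only [Matrix.SpecialLinearGroup.transvection_coe, Matrix.add_apply, Matrix.one_apply,
      add_smul, Finset.sum_add_distrib, ite_smul, one_smul, zero_smul]
    rcases eq_or_ne j k with rfl | hjk
    · simp [Matrix.single_apply, Finset.sum_ite_eq]
    · simp [Matrix.single_apply, hjk, Ne.symm hjk, Finset.sum_ite_eq]
  let A : Matrix.SpecialLinearGroup ι F :=
    ⟨LinearMap.toMatrix b b (g : W →ₗ[F] W), by rw [LinearMap.det_toMatrix]; exact hg⟩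
  have hmem : A ∈ H.comap e := htop ▸ Subgroup.mem_top _
  rw [Subgroup.mem_comap] at hmem
  convert hmem using 1
  apply LinearEquiv.toLinearMap_injective
  exact (Matrix.toLin_toMatrix b b (g : W →ₗ[F] W)).symm

/-- With all transvections of the form `B` the group contains every isometry. -/
theorem mem_of_isometry {B : LinearMap.BilinForm F W} (hA : B.IsAlt) (hB : B.Nondegenerate)
    (hH : ∀ (x : W) (c : F), IsTv H x (c • B x)) {g : W ≃ₗ[F] W} (hg : ∀ x y, B (g x) (g y) = B x y) :
    g ∈ H := by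
  obtain ⟨k, b, -, -, -⟩ := Cfsg.Agent.Forms.exists_symplectic_basis hA hB
  have hk : Module.finrank F W = 2 * k := by
    rw [Module.finrank_eq_card_basis b, Fintype.card_sum, Fintype.card_fin]; omega
  obtain ⟨e, he⟩ := Cfsg.Agent.SympSub.exists_iso_sympBil hA hB hk
  let f : Matrix.symplecticGroup (Fin k) F →* (W ≃ₗ[F] W) :=
    { toFun := fun A => e.trans ((Cfsg.Agent.SympSub.spLin A).trans e.symm)
      map_one' := by
        apply LinearEquiv.ext; intro v
        simp [Cfsg.Agent.SympSub.spLin]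
      map_mul' := fun A C => by
        apply LinearEquiv.ext; intro v
        simp [Cfsg.Agent.SympSub.spLin, Matrix.mulVec_mulVec] }
  have htop : H.comap f = ⊤ := by
    rw [eq_top_iff, ← Cfsg.Agent.Forms.sympTransvectionClosure_eq_top, Subgroup.closure_le]
    rintro A ⟨w, c, hw⟩
    obtain ⟨-, t, ht, htv⟩ := hH (e.symm w) (-c)
    show f A ∈ H
    convert ht using 1
    apply LinearEquiv.ext; intro v
    apply e.injective
    show e (e.symm _) = _
    rw [e.apply_symm_apply, htv, map_add, map_smul, e.apply_symm_apply]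
    show Matrix.mulVec _ (e v) = _
    rw [hw, Cfsg.Agent.Forms.sympTransvection_mulVec, ← Cfsg.Agent.Forms.sympBil_apply]
    congr 2
    rw [LinearMap.smul_apply, smul_eq_mul, ← he, e.apply_symm_apply,
      ← (Cfsg.Agent.Forms.sympBil_isAlt (m := k) (F := F)).neg_eq (e v) w]
    ring
  let g' : ↥(Cfsg.Agent.SympSub.isoGroup (Cfsg.Agent.Forms.sympBil k F)) :=
    ⟨e.symm.trans (g.trans e), fun x y => by
      show Cfsg.Agent.Forms.sympBil k F (e (g (e.symm x))) (e (g (e.symm y))) = _
      rw [he, hg, ← he, e.apply_symm_apply, e.apply_symm_apply]⟩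
  obtain ⟨A, hA'⟩ := Cfsg.Agent.SympSub.spLin_bijective.2 g'
  have hmem : A ∈ H.comap f := htop ▸ Subgroup.mem_top A
  rw [Subgroup.mem_comap] at hmem
  convert hmem using 1
  apply LinearEquiv.ext; intro v
  show _ = e.symm (Cfsg.Agent.SympSub.spLin A (e v))
  rw [show Cfsg.Agent.SympSub.spLin A = (g' : (Fin k ⊕ Fin k → F) ≃ₗ[F] _) from congrArg Subtype.val hA']
  simp [g']

end Generation

end Cfsg.Agent.RootSub.Transv
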