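import Cfsg.Agent.RootSub.Transv.Full
import Cfsg.Agent.RootSub.Transv.Alternating

/-! # The classification of irreducible transvection groups -/

set_option autoImplicit false

namespace Cfsg.Agent.RootSub.Transv

variable {F : Type*} [Field F] {W : Type*} [AddCommGroup W] [Module F W] [FiniteDimensional F W]
variable {H : Subgroup (W ≃ₗ[F] W)}

/-- An irreducible transvection group contains all transvections or those of an alternating form
and no others. -/
theorem classify (hsc : ScalarClosed H) (h2 : (2 : F) ≠ 0) (hirr : TvIrred H) {x₁ : W}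
    {φ₁ : Module.Dual F W} (hx₁ : x₁ ≠ 0) (hφ₁ : φ₁ ≠ 0) (h₁ : IsTv H x₁ φ₁) :
    (∀ v φ, φ v = 0 → IsTv H v φ) ∨
    ∃ B : LinearMap.BilinForm F W, B.IsAlt ∧ B.Nondegenerate ∧
      (∀ (v : W) (c : F), IsTv H v (c • B v)) ∧
      ∀ (v : W) φ, v ≠ 0 → IsTv H v φ → ∃ c : F, φ = c • B v := by
  by_cases hone : ∀ v : W, v ≠ 0 → Module.finrank F (fnl H v) ≤ 1
  · exact Or.inr (exists_alt_form hsc h2 hirr hone hx₁ hφ₁ h₁)
  · push Not at hone
    obtain ⟨v, hv, h⟩ := hone
    exact Or.inl (all_transvections hsc hirr hv h)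

theorem det_eq_one_of_isTv {g : W ≃ₗ[F] W} {x : W} {φ : Module.Dual F W} (h0 : φ x = 0)
    (hg : ∀ v, g v = v + φ v • x) : LinearMap.det (g : W →ₗ[F] W) = 1 := by
  have e : (g : W →ₗ[F] W) = LinearMap.transvection φ x := LinearMap.ext hg
  rw [e, LinearMap.transvection.det, h0, add_zero]

omit [FiniteDimensional F W] in
theorem isometry_of_form {B : LinearMap.BilinForm F W} (hA : B.IsAlt) {g : W ≃ₗ[F] W} {x : W}
    {φ : Module.Dual F W} {c : F} (hφ : φ = c • B x) (hg : ∀ v, g v = v + φ v • x) :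
    ∀ u v, B (g u) (g v) = B u v := by
  intro u v
  rw [hg, hg, hφ]
  simp only [map_add, map_smul, LinearMap.add_apply, LinearMap.smul_apply, smul_eq_mul, hA x]
  rw [← hA.neg_eq x u]
  ring

/-- Full case: the group is the special linear group once it is generated by transvections. -/
theorem eq_det_one (hall : ∀ v φ, φ v = 0 → IsTv H v φ) {S : Set (W ≃ₗ[F] W)}
    (hHS : H ≤ Subgroup.closure S)
    (hS : ∀ g ∈ S, ∃ (x : W) (φ : Module.Dual F W), φ x = 0 ∧ ∀ v, g v = v + φ v • x)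
    [Nontrivial (Fin (Module.finrank F W))] :
    (H : Set (W ≃ₗ[F] W)) = {g : W ≃ₗ[F] W | LinearMap.det (g : W →ₗ[F] W) = 1} := by
  ext g
  refine ⟨fun hg => ?_, fun hg => ?_⟩
  · have hle : H ≤ (LinearEquiv.det (R := F) (M := W)).ker := by
      refine hHS.trans ((Subgroup.closure_le _).2 fun t ht => ?_)
      obtain ⟨x, φ, h0, hx⟩ := hS t ht
      exact Units.ext (by rw [LinearEquiv.coe_det]; exact det_eq_one_of_isTv h0 hx)
    have := congrArg Units.val (MonoidHom.mem_ker.1 (hle hg))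
    rwa [LinearEquiv.coe_det] at this
  · refine mem_of_det_eq_one (Module.finBasis F W) (fun i j hij c => hall _ _ ?_) hg
    simp [hij]

/-- Symplectic case: the group is the isometry group once it is generated by transvections. -/
theorem eq_isometries {B : LinearMap.BilinForm F W} (hA : B.IsAlt) (hB : B.Nondegenerate)
    (hall : ∀ (v : W) (c : F), IsTv H v (c • B v))
    (honly : ∀ (v : W) φ, v ≠ 0 → IsTv H v φ → ∃ c : F, φ = c • B v) {S : Set (W ≃ₗ[F] W)}
    (hHS : H ≤ Subgroup.closure S) (hSH : S ⊆ (H : Set (W ≃ₗ[F] W)))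
    (hS : ∀ g ∈ S, ∃ (x : W) (φ : Module.Dual F W), φ x = 0 ∧ ∀ v, g v = v + φ v • x) :
    (H : Set (W ≃ₗ[F] W)) = {g | ∀ x y, B (g x) (g y) = B x y} := by
  ext g
  refine ⟨fun hg => ?_, fun hg => mem_of_isometry hA hB hall hg⟩
  have hle : H ≤ Cfsg.Agent.SympSub.isoGroup B := by
    refine hHS.trans ((Subgroup.closure_le _).2 fun t ht => ?_)
    obtain ⟨x, φ, h0, hx⟩ := hS t ht
    rcases eq_or_ne x 0 with rfl | hx0
    · intro u v; simp [hx]
    obtain ⟨c, hc⟩ := honly x φ hx0 (isTv_of_mem (hSH ht) h0 hx)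
    exact isometry_of_form hA hc hx
  exact hle hg

end Cfsg.Agent.RootSub.Transv
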