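import Cfsg.Agent.RootSub.Transv.Classify
import Cfsg.Prelude.Def_Solvable

/-!
# The components of a transvection group over `ZMod p` without normal `p`-subgroup

Connectedness by nonzero pairings is symmetric, different components commute, and each component
splits the space into the span of its centres and its common axis.
-/

set_option autoImplicit false

namespace Cfsg.Agent.RootSub.Transv

open Cfsg

variable {p : ℕ} [Fact p.Prime] {V : Type*} [AddCommGroup V] [Module (ZMod p) V]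

variable (H : Subgroup (V ≃ₗ[ZMod p] V))

/-- The nontrivial transvections of `H`. -/
def Tvs : Set (V × Module.Dual (ZMod p) V) := {X | X.1 ≠ 0 ∧ X.2 ≠ 0 ∧ IsTv H X.1 X.2}

/-- The second transvection moves the centre of the first. -/
def Edge (X Y : V × Module.Dual (ZMod p) V) : Prop := X ∈ Tvs H ∧ Y ∈ Tvs H ∧ Y.2 X.1 ≠ 0

/-- Chains of edges. -/
def TConn : V × Module.Dual (ZMod p) V → V × Module.Dual (ZMod p) V → Prop :=
  Relation.ReflTransGen (Edge H)

/-- The component of `X`. -/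
def cls (X : V × Module.Dual (ZMod p) V) : Set (V × Module.Dual (ZMod p) V) :=
  {Z | Z ∈ Tvs H ∧ TConn H X Z}

/-- The automorphisms given by a set of transvections. -/
def elts (A : Set (V × Module.Dual (ZMod p) V)) : Set (V ≃ₗ[ZMod p] V) :=
  {g | ∃ Z ∈ A, ∀ v, g v = v + Z.2 v • Z.1}

/-- The group of a component. -/
def clsGroup (X : V × Module.Dual (ZMod p) V) : Subgroup (V ≃ₗ[ZMod p] V) :=
  Subgroup.closure (elts (cls H X))

/-- The span of the centres of a component. -/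
def clsSpan (X : V × Module.Dual (ZMod p) V) : Submodule (ZMod p) V :=
  Submodule.span (ZMod p) (Prod.fst '' cls H X)

/-- The common fixed space of a component. -/
def clsFix (X : V × Module.Dual (ZMod p) V) : Submodule (ZMod p) V :=
  ⨅ Z ∈ cls H X, LinearMap.ker Z.2

variable {H}

theorem scalarClosed {W : Type*} [AddCommGroup W] [Module (ZMod p) W]
    (G : Subgroup (W ≃ₗ[ZMod p] W)) : ScalarClosed G := by
  intro x φ h c
  have hn : ∀ n : ℕ, IsTv G x ((n : ZMod p) • φ) := by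
    intro n
    induction n with
    | zero => rw [Nat.cast_zero, zero_smul]; exact IsTv.zero_right x
    | succ n ih => rw [Nat.cast_succ, add_smul, one_smul]; exact ih.add h
  simpa [ZMod.natCast_zmod_val] using hn c.val

theorem elts_subset {A : Set (V × Module.Dual (ZMod p) V)} (hA : A ⊆ Tvs H) :
    elts A ⊆ (H : Set (V ≃ₗ[ZMod p] V)) := by
  rintro g ⟨Z, hZ, hg⟩
  obtain ⟨-, t, ht, htv⟩ := (hA hZ).2.2
  rwa [show g = t from LinearEquiv.ext fun v => by rw [hg, htv]]

theorem elts_transvection {A : Set (V × Module.Dual (ZMod p) V)} (hA : A ⊆ Tvs H) :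
    ∀ g ∈ elts A, ∃ (x : V) (φ : Module.Dual (ZMod p) V), φ x = 0 ∧ ∀ v, g v = v + φ v • x :=
  fun _ ⟨Z, hZ, hg⟩ => ⟨Z.1, Z.2, (hA hZ).2.2.1, hg⟩

theorem cls_subset (X : V × Module.Dual (ZMod p) V) : cls H X ⊆ Tvs H := fun _ h => h.1

theorem clsGroup_le (X : V × Module.Dual (ZMod p) V) : clsGroup H X ≤ H :=
  (Subgroup.closure_le _).2 (elts_subset (cls_subset X))

theorem mem_clsFix {X : V × Module.Dual (ZMod p) V} {v : V} :
    v ∈ clsFix H X ↔ ∀ Z ∈ cls H X, Z.2 v = 0 := by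
  simp [clsFix]

theorem fst_mem_clsSpan {X Z : V × Module.Dual (ZMod p) V} (hZ : Z ∈ cls H X) :
    Z.1 ∈ clsSpan H X := Submodule.subset_span ⟨Z, hZ, rfl⟩

/-- The elements moving into a subspace, as a subgroup. -/
def moveInto (S : Submodule (ZMod p) V) : Subgroup (V ≃ₗ[ZMod p] V) where
  carrier := {g | ∀ v, g v - v ∈ S}
  one_mem' v := by simp
  mul_mem' {a b} ha hb v := by
    have := add_mem (ha (b v)) (hb v)
    rw [sub_add_sub_cancel] at this
    exact this
  inv_mem' {a} ha v := by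
    have := neg_mem (ha (a⁻¹ v))
    rw [neg_sub] at this
    simpa using this

/-- The elements fixing a subspace pointwise, as a subgroup. -/
def fixing (S : Submodule (ZMod p) V) : Subgroup (V ≃ₗ[ZMod p] V) where
  carrier := {g | ∀ v ∈ S, g v = v}
  one_mem' v _ := rfl
  mul_mem' {a b} ha hb v hv := by show a (b v) = v; rw [hb v hv, ha v hv]
  inv_mem' {a} ha v hv := by
    show a.symm v = v
    rw [LinearEquiv.symm_apply_eq, ha v hv]

theorem clsGroup_move (X : V × Module.Dual (ZMod p) V) :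
    clsGroup H X ≤ moveInto (clsSpan H X) ⊓ fixing (clsFix H X) := by
  rw [clsGroup, Subgroup.closure_le]
  rintro g ⟨Z, hZ, hg⟩
  refine ⟨fun v => ?_, fun v hv => ?_⟩
  · rw [hg, add_sub_cancel_left]; exact Submodule.smul_mem _ _ (fst_mem_clsSpan hZ)
  · rw [hg, mem_clsFix.1 hv Z hZ, zero_smul, add_zero]

theorem pow_apply_of_fix {g : V ≃ₗ[ZMod p] V} {v : V} (h : g (g v - v) = g v - v) (n : ℕ) :
    (g ^ n) v = v + n • (g v - v) := by
  induction n with
  | zero => simp
  | succ n ih =>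
    rw [pow_succ', LinearEquiv.mul_apply, ih, map_add, map_nsmul, h, succ_nsmul]
    abel

theorem nsmul_prime (v : V) : p • v = 0 := by
  rw [← Nat.cast_smul_eq_nsmul (ZMod p), ZMod.natCast_self, zero_smul]

/-- A normal subgroup of exponent `p` is trivial. -/
theorem eq_bot_of_pow (hOp : pCore p ↥H = ⊥) {Q : Subgroup (V ≃ₗ[ZMod p] V)} (hle : Q ≤ H)
    (hn : ∀ h ∈ H, ∀ g ∈ Q, h * g * h⁻¹ ∈ Q) (hexp : ∀ g ∈ Q, ∃ k, g ^ p ^ k = 1) : Q = ⊥ := by
  have hmem : Q.subgroupOf H ∈ {N : Subgroup ↥H | N.Normal ∧ IsPGroup p N} := by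
    refine ⟨⟨fun n hn' g => ?_⟩, fun g => ?_⟩
    · rw [Subgroup.mem_subgroupOf] at hn' ⊢
      exact hn g g.2 n hn'
    · obtain ⟨k, hk⟩ := hexp _ (Subgroup.mem_subgroupOf.1 g.2)
      exact ⟨k, Subtype.ext (Subtype.ext (by simpa using hk))⟩
  have hle' : Q.subgroupOf H ≤ pCore p ↥H := le_sSup hmem
  rw [hOp, le_bot_iff] at hle'
  exact (Subgroup.subgroupOf_eq_bot.1 hle').eq_bot_of_le hle

/-- A list of hypotheses shared by the whole theory. -/
structure Setup (H : Subgroup (V ≃ₗ[ZMod p] V)) : Prop where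
  gen : H ≤ Subgroup.closure (elts (Tvs H))
  core : pCore p ↥H = ⊥
  two : (2 : ZMod p) ≠ 0

variable (hs : Setup H)

include hs in
/-- Edges can be reversed by chains. -/
theorem TConn.of_edge {X Y : V × Module.Dual (ZMod p) V} (he : Edge H X Y) : TConn H Y X := by
  by_contra hno
  obtain ⟨hX, hY, hne⟩ := he
  set S := clsSpan H Y with hS
  have hclos : ∀ Z ∈ Tvs H, ∀ u ∈ S, Z.2 u • Z.1 ∈ S := by
    intro Z hZ u hu
    by_cases hall : ∀ W ∈ cls H Y, Z.2 W.1 = 0
    · have : Z.2 u = 0 := by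
        have hle : S ≤ LinearMap.ker Z.2 :=
          Submodule.span_le.2 (by rintro _ ⟨W, hW, rfl⟩; exact hall W hW)
        exact hle hu
      simp [this]
    · push Not at hall
      obtain ⟨W, hW, hW'⟩ := hall
      exact Submodule.smul_mem _ _ (fst_mem_clsSpan
        ⟨hZ, hW.2.trans (Relation.ReflTransGen.single ⟨hW.1, hZ, hW'⟩)⟩)
  have hinv : ∀ h ∈ H, ∀ u ∈ S, h u ∈ S := by
    intro h hh
    refine map_mem_of_closure (elts_transvection (A := Tvs H) subset_rfl) ?_ (hs.gen hh)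
    rintro g ⟨Z, hZ, hg⟩ u hu
    rw [hg]; exact add_mem hu (hclos Z hZ u hu)
  have hXS : ∀ u ∈ S, X.2 u = 0 := by
    intro u hu
    have hle : S ≤ LinearMap.ker X.2 := Submodule.span_le.2 (by
      rintro _ ⟨W, hW, rfl⟩
      by_contra h
      exact hno (hW.2.trans (Relation.ReflTransGen.single ⟨hW.1, hX, h⟩)))
    exact hle hu
  have hY1 : Y.1 ∈ S := fst_mem_clsSpan ⟨hY, Relation.ReflTransGen.refl⟩
  obtain ⟨-, g, hg, hgv⟩ : IsTv H Y.1 X.2 :=
    hY.2.2.comm_unit (scalarClosed H) hX.2.2 (hXS _ hY1) hne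
  have hQ : H ⊓ moveInto S ⊓ fixing S = ⊥ := by
    refine eq_bot_of_pow hs.core (inf_le_left.trans inf_le_left) ?_ ?_
    · rintro h hh q ⟨⟨hq, hq1⟩, hq2⟩
      refine ⟨⟨H.mul_mem (H.mul_mem hh hq) (H.inv_mem hh), fun v => ?_⟩, fun v hv => ?_⟩
      · have := hinv h hh _ (hq1 (h⁻¹ v))
        rw [map_sub] at this
        simpa using this
      · show h (q (h⁻¹ v)) = v
        rw [hq2 _ (hinv _ (inv_mem hh) v hv)]
        simp
    · rintro q ⟨⟨-, hq1⟩, hq2⟩
      refine ⟨1, LinearEquiv.ext fun v => ?_⟩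
      rw [pow_one, pow_apply_of_fix (hq2 _ (hq1 v)), nsmul_prime, add_zero]
      rfl
  have hgQ : g ∈ H ⊓ moveInto S ⊓ fixing S :=
    ⟨⟨hg, fun v => by rw [hgv, add_sub_cancel_left]; exact S.smul_mem _ hY1⟩,
      fun v hv => by rw [hgv, hXS v hv, zero_smul, add_zero]⟩
  rw [hQ, Subgroup.mem_bot] at hgQ
  obtain ⟨v, hv⟩ : ∃ v, X.2 v ≠ 0 := by
    by_contra h
    push Not at h
    exact hX.2.1 (LinearMap.ext h)
  have := hgv v
  rw [hgQ, LinearEquiv.coe_one, id, left_eq_add, smul_eq_zero] at this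
  exact this.elim hv hY.1

include hs in
theorem TConn.symm {X Y : V × Module.Dual (ZMod p) V} (h : TConn H X Y) : TConn H Y X := by
  induction h with
  | refl => exact Relation.ReflTransGen.refl
  | tail _ he ih => exact (TConn.of_edge hs he).trans ih

include hs in
theorem cls_eq {X Y : V × Module.Dual (ZMod p) V} (h : TConn H X Y) : cls H X = cls H Y := by
  ext Z
  exact ⟨fun hZ => ⟨hZ.1, (h.symm hs).trans hZ.2⟩, fun hZ => ⟨hZ.1, h.trans hZ.2⟩⟩

include hs in
/-- Different components do not meet. -/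
theorem pairing_zero {X Z W : V × Module.Dual (ZMod p) V} (hZ : Z ∈ cls H X) (hW : W ∈ Tvs H)
    (hne : ¬ TConn H X W) : W.2 Z.1 = 0 ∧ Z.2 W.1 = 0 := by
  constructor <;> by_contra h
  · exact hne (hZ.2.trans (Relation.ReflTransGen.single ⟨hZ.1, hW, h⟩))
  · exact hne (hZ.2.trans (TConn.symm hs (Relation.ReflTransGen.single ⟨hW, hZ.1, h⟩ : TConn H W Z)))

theorem commute_of_pairing {g g' : V ≃ₗ[ZMod p] V} {Z W : V × Module.Dual (ZMod p) V}
    (hg : ∀ v, g v = v + Z.2 v • Z.1) (hg' : ∀ v, g' v = v + W.2 v • W.1) (h1 : W.2 Z.1 = 0)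
    (h2 : Z.2 W.1 = 0) : g * g' = g' * g := by
  refine LinearEquiv.ext fun v => ?_
  show g (g' v) = g' (g v)
  simp [hg, hg', h1, h2]
  abel

include hs in
theorem commute_clsGroup {X Y : V × Module.Dual (ZMod p) V} (hne : ¬ TConn H X Y) :
    ∀ a ∈ clsGroup H X, ∀ b ∈ clsGroup H Y, a * b = b * a := by
  have hgen : ∀ a ∈ elts (cls H X), ∀ b ∈ elts (cls H Y), a * b = b * a := by
    rintro a ⟨Z, hZ, ha⟩ b ⟨W, hW, hb⟩
    obtain ⟨h1, h2⟩ := pairing_zero hs hZ hW.1 fun h => hne (h.trans (hW.2.symm hs))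
    exact commute_of_pairing ha hb h1 h2
  have step1 : clsGroup H Y ≤ Subgroup.centralizer (elts (cls H X)) :=
    (Subgroup.closure_le _).2 fun b hb => Subgroup.mem_centralizer_iff.2 fun a ha => hgen a ha b hb
  intro a ha b hb
  have step2 : clsGroup H X ≤ Subgroup.centralizer {b} :=
    (Subgroup.closure_le _).2 fun a ha => Subgroup.mem_centralizer_singleton_iff.2
      (Subgroup.mem_centralizer_iff.1 (step1 hb) a ha)
  exact Subgroup.mem_centralizer_singleton_iff.1 (step2 ha)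

include hs in
/-- The group permutes the generators of a component group inside it. -/
theorem conj_mem_clsGroup (X : V × Module.Dual (ZMod p) V) :
    ∀ h ∈ H, ∀ g ∈ clsGroup H X, h * g * h⁻¹ ∈ clsGroup H X := by
  have hgen : ∀ W ∈ Tvs H, ∀ t : V ≃ₗ[ZMod p] V, (∀ v, t v = v + W.2 v • W.1) →
      ∀ g ∈ clsGroup H X, t * g * t⁻¹ ∈ clsGroup H X := by
    intro W hW t ht g hg
    by_cases hc : TConn H X W
    · have htm : t ∈ clsGroup H X := Subgroup.subset_closure ⟨W, ⟨hW, hc⟩, ht⟩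
      exact mul_mem (mul_mem htm hg) (inv_mem htm)
    · have htc : t ∈ clsGroup H W :=
        Subgroup.subset_closure ⟨W, ⟨hW, Relation.ReflTransGen.refl⟩, ht⟩
      rw [← commute_clsGroup hs hc g hg t htc, mul_inv_cancel_right]
      exact hg
  intro h hh
  have hh' := hs.gen hh
  induction hh' using Subgroup.closure_induction'' with
  | mem t ht =>
    obtain ⟨W, hW, hWt⟩ := ht
    exact hgen W hW t hWt
  | inv_mem t ht =>
    obtain ⟨W, hW, hWt⟩ := ht
    refine hgen (W.1, -W.2) ⟨hW.1, neg_ne_zero.2 hW.2.1, hW.2.2.neg⟩ t⁻¹ fun v => ?_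
    show t.symm v = _
    rw [LinearEquiv.symm_apply_eq, hWt]
    simp [hW.2.2.1]
  | one => simp
  | mul a b ha hb iha ihb =>
    intro g hg
    have hm : ∀ x ∈ Subgroup.closure (elts (Tvs H)), x ∈ H := fun x hx =>
      (Subgroup.closure_le _).2 (elts_subset (A := Tvs H) subset_rfl) hx
    have := iha (hm a ha) _ (ihb (hm b hb) g hg)
    simpa [mul_assoc] using this

include hs in
theorem apply_mem_clsSpan {X : V × Module.Dual (ZMod p) V} : ∀ h ∈ H, ∀ u ∈ clsSpan H X,
    h u ∈ clsSpan H X := by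
  intro h hh
  refine map_mem_of_closure (elts_transvection (A := Tvs H) subset_rfl) ?_ (hs.gen hh)
  rintro g ⟨W, hW, hg⟩ u hu
  rw [hg]
  refine add_mem hu ?_
  by_cases hc : TConn H X W
  · exact Submodule.smul_mem _ _ (fst_mem_clsSpan ⟨hW, hc⟩)
  · have hle : clsSpan H X ≤ LinearMap.ker W.2 :=
      Submodule.span_le.2 (by rintro _ ⟨Z, hZ, rfl⟩; exact (pairing_zero hs hZ hW hc).1)
    simp [LinearMap.mem_ker.1 (hle hu)]

include hs in
theorem apply_mem_clsFix {X : V × Module.Dual (ZMod p) V} : ∀ h ∈ H, ∀ u ∈ clsFix H X,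
    h u ∈ clsFix H X := by
  intro h hh
  refine map_mem_of_closure (elts_transvection (A := Tvs H) subset_rfl) ?_ (hs.gen hh)
  rintro g ⟨W, hW, hg⟩ u hu
  rw [hg]
  refine add_mem hu ?_
  by_cases hc : TConn H X W
  · simp [mem_clsFix.1 hu W ⟨hW, hc⟩]
  · refine Submodule.smul_mem _ _ (mem_clsFix.2 fun Z hZ => (pairing_zero hs hZ hW hc).2)

include hs in
/-- Every transvection moves and is moved by a centre of its component. -/
theorem exists_out {X : V × Module.Dual (ZMod p) V} (hX : X ∈ Tvs H) :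
    (∃ Y ∈ cls H X, Y.2 X.1 ≠ 0) ∧ ∃ Y ∈ cls H X, X.2 Y.1 ≠ 0 := by
  have hself : ∀ {Z}, Z ∈ Tvs H → Z.2 Z.1 = 0 := fun hZ => hZ.2.2.1
  have hout : ∃ Y ∈ Tvs H, Y.2 X.1 ≠ 0 := by
    by_contra hno
    push Not at hno
    have hin : ∀ Y ∈ Tvs H, X.2 Y.1 = 0 := by
      intro Y hY
      by_contra h
      have hXY : TConn H X Y := TConn.of_edge hs ⟨hY, hX, h⟩
      rcases Relation.ReflTransGen.cases_head hXY with h' | ⟨Z, hXZ, -⟩
      · exact h (h' ▸ hself hX)
      · exact hXZ.2.2 (hno Z hXZ.2.1)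
    obtain ⟨-, g, hg, hgv⟩ := hX.2.2
    have hcomm : ∀ h ∈ H, h * g = g * h := by
      have hle : H ≤ Subgroup.centralizer {g} := hs.gen.trans ((Subgroup.closure_le _).2 (by
        rintro t ⟨W, hW, ht⟩
        exact Subgroup.mem_centralizer_singleton_iff.2
          (commute_of_pairing ht hgv (hin W hW) (hno W hW))))
      exact fun h hh => Subgroup.mem_centralizer_singleton_iff.1 (hle hh)
    have hbot : Subgroup.zpowers g = ⊥ := by
      refine eq_bot_of_pow hs.core (Subgroup.zpowers_le.2 hg) (fun h hh q hq => ?_) fun q hq => ⟨1, ?_⟩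
      · obtain ⟨n, rfl⟩ := Subgroup.mem_zpowers_iff.1 hq
        rw [((show Commute h g from hcomm h hh).zpow_right n).eq, mul_inv_cancel_right]
        exact hq
      · obtain ⟨n, rfl⟩ := Subgroup.mem_zpowers_iff.1 hq
        rw [pow_one, ← zpow_natCast, ← zpow_mul, mul_comm, zpow_mul, zpow_natCast]
        have : g ^ p = 1 := LinearEquiv.ext fun v => by
          rw [pow_apply_of_fix (by rw [hgv v, add_sub_cancel_left, hgv, map_smul, hself hX]; simp),
            nsmul_prime, add_zero]; rfl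
        rw [this, one_zpow]
    have hg1 : g = 1 := by
      have := hbot ▸ Subgroup.mem_zpowers g
      exact Subgroup.mem_bot.1 this
    obtain ⟨v, hv⟩ : ∃ v, X.2 v ≠ 0 := by
      by_contra h
      push Not at h
      exact hX.2.1 (LinearMap.ext h)
    have := hgv v
    rw [hg1, LinearEquiv.coe_one, id, left_eq_add, smul_eq_zero] at this
    exact this.elim hv hX.1
  obtain ⟨Y, hY, hne⟩ := hout
  refine ⟨⟨Y, ⟨hY, Relation.ReflTransGen.single ⟨hX, hY, hne⟩⟩, hne⟩, ?_⟩
  have hYX : TConn H Y X := TConn.of_edge hs ⟨hX, hY, hne⟩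
  rcases Relation.ReflTransGen.cases_tail hYX with h' | ⟨Z, hYZ, hZX⟩
  · subst h'; exact absurd (hself hX) hne
  · exact ⟨Z, ⟨hZX.1, (Relation.ReflTransGen.single ⟨hX, hY, hne⟩ : TConn H X Y).trans hYZ⟩, hZX.2.2⟩

end Cfsg.Agent.RootSub.Transv
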