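import Cfsg.Agent.RootSub.Transv.Split

/-!
# The decomposition of a transvection group over `ZMod p`
-/

set_option autoImplicit false

namespace Cfsg.Agent.RootSub.Transv

open Cfsg

variable {p : ℕ} [Fact p.Prime] {V : Type*} [AddCommGroup V] [Module (ZMod p) V] [Finite V]
variable {H : Subgroup (V ≃ₗ[ZMod p] V)}

/-- A component splits and induces the special linear or a symplectic group on its centres. -/
theorem component_structure (hs : Setup H) {X : V × Module.Dual (ZMod p) V} (hX : X ∈ Tvs H) :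
    clsSpan H X ⊓ clsFix H X = ⊥ ∧ clsSpan H X ⊔ clsFix H X = ⊤ ∧
    ∃ ρ : ↥(clsGroup H X) →* (↥(clsSpan H X) ≃ₗ[ZMod p] ↥(clsSpan H X)),
      (∀ (h : ↥(clsGroup H X)) (v : ↥(clsSpan H X)),
        ((ρ h v : ↥(clsSpan H X)) : V) = (h : V ≃ₗ[ZMod p] V) (v : V)) ∧
      ((ρ.range : Set (↥(clsSpan H X) ≃ₗ[ZMod p] ↥(clsSpan H X))) =
          {f : ↥(clsSpan H X) ≃ₗ[ZMod p] ↥(clsSpan H X) |
            LinearMap.det (f : ↥(clsSpan H X) →ₗ[ZMod p] ↥(clsSpan H X)) = 1} ∨
        ∃ B : LinearMap.BilinForm (ZMod p) ↥(clsSpan H X), B.IsAlt ∧ B.Nondegenerate ∧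
          (ρ.range : Set (↥(clsSpan H X) ≃ₗ[ZMod p] ↥(clsSpan H X))) =
            {f : ↥(clsSpan H X) ≃ₗ[ZMod p] ↥(clsSpan H X) | ∀ x y, B (f x) (f y) = B x y}) := by
  classical
  have hXc : X ∈ cls H X := ⟨hX, Relation.ReflTransGen.refl⟩
  have hx := mk_centre_ne_zero hs hXc
  have hφ := bar_ne_zero hs hXc
  have ht := isTv_image hs (isTv_of_cls hXc) (fst_mem_clsSpan hXc) (fix_of_cls hXc)
  set Q := clsSpan H X ⧸ clsRad H X with hQ
  have hn2 : 2 ≤ Module.finrank (ZMod p) Q := by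
    by_contra hlt
    obtain ⟨v, hv⟩ : ∃ v, bar X.2 (fix_of_cls hXc) v ≠ 0 := by
      by_contra h; push Not at h; exact hφ (LinearMap.ext h)
    have h1 : Module.finrank (ZMod p) Q = 1 := by
      have : 0 < Module.finrank (ZMod p) Q := Module.finrank_pos_iff_exists_ne_zero.2 ⟨_, hx⟩
      omega
    obtain ⟨c, hc⟩ := (finrank_eq_one_iff_of_nonzero' (K := ZMod p) (V := Q) _ hx).1 h1 v
    exact hv (by rw [← hc, map_smul, ht.1, smul_zero])
  haveI : Nontrivial (Fin (Module.finrank (ZMod p) Q)) := Fin.nontrivial_iff_two_le.2 hn2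
  have hcl := classify (scalarClosed (rho hs X).range) hs.two (tvIrred_range hs) hx hφ ht
  have hsub : (rho hs X '' (Subtype.val ⁻¹' elts (cls H X))) ⊆
      ((rho hs X).range : Set (Q ≃ₗ[ZMod p] Q)) := by
    rintro _ ⟨g, -, rfl⟩; exact ⟨g, rfl⟩
  -- the shape of the image on the quotient
  have himg : ((rho hs X).range : Set (Q ≃ₗ[ZMod p] Q)) =
        {f : Q ≃ₗ[ZMod p] Q | LinearMap.det (f : Q →ₗ[ZMod p] Q) = 1} ∨
      ∃ B : LinearMap.BilinForm (ZMod p) Q, B.IsAlt ∧ B.Nondegenerate ∧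
        ((rho hs X).range : Set (Q ≃ₗ[ZMod p] Q)) = {f | ∀ x y, B (f x) (f y) = B x y} := by
    rcases hcl with hall | ⟨B, hA, hB, h1, h2⟩
    · exact Or.inl (eq_det_one hall (range_le_closure hs) (image_elts_transvection hs))
    · exact Or.inr ⟨B, hA, hB, eq_isometries hA hB h1 h2 (range_le_closure hs) hsub
        (image_elts_transvection hs)⟩
  have hsplit : clsSpan H X ⊓ clsFix H X = ⊥ ∧ clsSpan H X ⊔ clsFix H X = ⊤ := by
    rcases himg with himg | ⟨B, -, -, himg⟩
    · by_cases hev : Even (Module.finrank (ZMod p) Q)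
      · refine split_of_neg hs ?_
        have : (LinearEquiv.neg (ZMod p) : Q ≃ₗ[ZMod p] Q) ∈
            ((rho hs X).range : Set (Q ≃ₗ[ZMod p] Q)) := by
          rw [himg, Set.mem_setOf_eq,
            show ((LinearEquiv.neg (ZMod p) : Q ≃ₗ[ZMod p] Q) : Q →ₗ[ZMod p] Q) =
              (-1 : ZMod p) • LinearMap.id from LinearMap.ext fun q => by simp,
            LinearMap.det_smul, LinearMap.det_id, mul_one, hev.neg_one_pow]
        exact this
      · refine split_of_full hs hX ?_ ?_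
        · intro v φ h0
          refine ⟨h0, LinearEquiv.transvection h0, ?_, fun w => rfl⟩
          rw [← SetLike.mem_coe, himg, Set.mem_setOf_eq, LinearEquiv.transvection.coe_toLinearMap,
            LinearMap.transvection.det, h0, add_zero]
        · rcases Nat.lt_or_ge (Module.finrank (ZMod p) Q) 3 with h | h
          · exact absurd ⟨1, show Module.finrank (ZMod p) Q = 1 + 1 by omega⟩ hev
          · exact h
    · refine split_of_neg hs ?_
      have : (LinearEquiv.neg (ZMod p) : Q ≃ₗ[ZMod p] Q) ∈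
          ((rho hs X).range : Set (Q ≃ₗ[ZMod p] Q)) := by
        rw [himg]
        intro x y
        show B (-x) (-y) = B x y
        simp
      exact this
  refine ⟨hsplit.1, hsplit.2, ?_⟩
  have hbot : clsRad H X = ⊥ := by
    rw [eq_bot_iff]
    intro r hr
    have : (r : V) ∈ clsSpan H X ⊓ clsFix H X := ⟨r.2, hr⟩
    rw [hsplit.1, Submodule.mem_bot] at this
    exact (Submodule.mem_bot _).2 (Subtype.ext this)
  let e : Q ≃ₗ[ZMod p] ↥(clsSpan H X) := Submodule.quotEquivOfEqBot _ hbot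
  have hemk : ∀ u : clsSpan H X, e (Submodule.Quotient.mk u) = u := fun u => rfl
  let cj : (Q ≃ₗ[ZMod p] Q) →* (↥(clsSpan H X) ≃ₗ[ZMod p] ↥(clsSpan H X)) :=
    { toFun := fun f => e.symm.trans (f.trans e)
      map_one' := LinearEquiv.ext fun u => by simp
      map_mul' := fun f g => LinearEquiv.ext fun u => by simp }
  refine ⟨cj.comp (rho hs X), fun h v => ?_, ?_⟩
  · show ((e (rho hs X h (e.symm v)) : clsSpan H X) : V) = _
    rw [show e.symm v = Submodule.Quotient.mk v from e.symm_apply_eq.2 (hemk v).symm, rho_mk, hemk]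
  have hrange : ((cj.comp (rho hs X)).range : Set (↥(clsSpan H X) ≃ₗ[ZMod p] ↥(clsSpan H X))) =
      {f | e.trans (f.trans e.symm) ∈ ((rho hs X).range : Set (Q ≃ₗ[ZMod p] Q))} := by
    ext f
    constructor
    · rintro ⟨g, rfl⟩
      exact ⟨g, LinearEquiv.ext fun q => by simp [cj]⟩
    · rintro ⟨g, hg⟩
      refine ⟨g, LinearEquiv.ext fun u => ?_⟩
      show e (rho hs X g (e.symm u)) = f u
      rw [hg]; simp
  rcases himg with himg | ⟨B, hA, hB, himg⟩
  · left
    rw [hrange, himg]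
    ext f
    have := LinearMap.det_conj (f : ↥(clsSpan H X) →ₗ[ZMod p] ↥(clsSpan H X)) e.symm
    rw [LinearEquiv.symm_symm] at this
    show LinearMap.det _ = 1 ↔ LinearMap.det _ = 1
    rw [← this]
    rfl
  · right
    let B' : LinearMap.BilinForm (ZMod p) ↥(clsSpan H X) :=
      B.compl₁₂ e.symm.toLinearMap e.symm.toLinearMap
    refine ⟨B', fun v => hA _, ⟨fun v hv => ?_, fun v hv => ?_⟩, ?_⟩
    · exact e.symm.map_eq_zero_iff.1 (hB.1 _ fun q => by simpa [B'] using hv (e q))
    · exact e.symm.map_eq_zero_iff.1 (hB.2 _ fun q => by simpa [B'] using hv (e q))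
    rw [hrange, himg]
    ext f
    constructor
    · intro h x y
      simpa [B'] using h (e.symm x) (e.symm y)
    · intro h x y
      simpa [B'] using h (e x) (e y)

end Cfsg.Agent.RootSub.Transv
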