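import Cfsg.Agent.RootSub.Transv.Basic

/-!
# Irreducible transvection groups with two functionals at one centre

Such a group contains every transvection.
-/

set_option autoImplicit false

namespace Cfsg.Agent.RootSub.Transv

variable {F : Type*} [Field F] {W : Type*} [AddCommGroup W] [Module F W] [FiniteDimensional F W]
variable {H : Subgroup (W ≃ₗ[F] W)} (hsc : ScalarClosed H)

theorem fnl_le (x : W) (hsc : ScalarClosed H) :
    fnl H x ≤ (F ∙ x).dualAnnihilator := by
  intro φ hφ
  rw [Submodule.mem_dualAnnihilator]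
  intro v hv
  obtain ⟨c, rfl⟩ := Submodule.mem_span_singleton.1 hv
  rw [map_smul, ((mem_fnl hsc).1 hφ).1, smul_zero]

include hsc in
/-- If `ψ x ≠ 0` for a centre `x` of largest rank then the new centre has the same rank. -/
theorem fnl_eq_of_ne {m : ℕ} (hmax : ∀ v : W, v ≠ 0 → Module.finrank F (fnl H v) ≤ m) {x y : W}
    {ψ : Module.Dual F W} (hdim : Module.finrank F (fnl H x) = m) (hy : y ≠ 0) (hψ : IsTv H y ψ)
    (hx : ψ x ≠ 0) :
    y ∉ (fnl H x).dualCoannihilator ∧
      fnl H y = (fnl H x ⊓ LinearMap.ker (Module.Dual.eval F W y)) ⊔ F ∙ ψ := by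
  set K := fnl H x ⊓ LinearMap.ker (Module.Dual.eval F W y) with hK
  have hle : K ⊔ F ∙ ψ ≤ fnl H y := by
    refine sup_le (fun φ hφ => ?_) ?_
    · have hy0 : φ y = 0 := hφ.2
      exact (mem_fnl hsc).2 (hψ.comm_unit hsc ((mem_fnl hsc).1 hφ.1) hy0 hx)
    · rw [Submodule.span_singleton_le_iff_mem]; exact (mem_fnl hsc).2 hψ
  have hne : ψ ∉ K := fun h => hx ((mem_fnl hsc).1 h.1).1
  have hdisj : Module.finrank F ↥(K ⊔ F ∙ ψ) = Module.finrank F K + 1 := by
    have h := Submodule.finrank_sup_add_finrank_inf_eq K (F ∙ ψ)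
    have hb : K ⊓ F ∙ ψ = ⊥ := by
      rw [eq_bot_iff]
      rintro φ ⟨h1, h2⟩
      obtain ⟨c, rfl⟩ := Submodule.mem_span_singleton.1 h2
      rcases eq_or_ne c 0 with rfl | hc
      · simp
      · exact absurd ((Submodule.smul_mem_iff K hc).1 h1) hne
    rw [hb, finrank_bot, finrank_span_singleton (fun h0 => hx (by rw [h0]; rfl)), add_zero] at h
    exact h
  have hub := (Submodule.finrank_mono hle).trans (hmax y hy)
  have hnot : y ∉ (fnl H x).dualCoannihilator := by
    intro hU
    have : K = fnl H x := by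
      rw [hK, inf_eq_left]
      exact fun φ hφ => (Submodule.mem_dualCoannihilator y).1 hU φ hφ
    rw [hdisj, this, hdim] at hub
    omega
  refine ⟨hnot, (Submodule.eq_of_le_of_finrank_le hle ?_).symm⟩
  rw [Submodule.mem_dualCoannihilator] at hnot
  push Not at hnot
  obtain ⟨φ0, hφ0, hne0⟩ := hnot
  have hspan : fnl H x ≤ K ⊔ F ∙ φ0 := by
    intro φ hφ
    refine Submodule.mem_sup.2 ⟨φ - (φ y / φ0 y) • φ0, ⟨sub_mem hφ (Submodule.smul_mem _ _ hφ0), ?_⟩,
      (φ y / φ0 y) • φ0, Submodule.smul_mem _ _ (Submodule.mem_span_singleton_self φ0), by abel⟩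
    simp [hne0]
  have h1 := (Submodule.finrank_mono hspan).trans (Submodule.finrank_add_le_finrank_add_finrank _ _)
  rw [finrank_span_singleton (fun h0 => hne0 (by rw [h0]; rfl)), hdim] at h1
  rw [hdisj]
  exact (hmax y hy).trans h1

include hsc in
/-- An irreducible transvection group in which some centre has two functionals contains all
transvections. -/
theorem all_transvections (hirr : TvIrred H) {x₁ : W} (hx₁ : x₁ ≠ 0)
    (h2 : 2 ≤ Module.finrank F (fnl H x₁)) :
    ∀ v φ, φ v = 0 → IsTv H v φ := by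
  classical
  let P : ℕ → Prop := fun m => ∃ v : W, v ≠ 0 ∧ Module.finrank F (fnl H v) = m
  have hbd : ∀ v : W, Module.finrank F (fnl H v) ≤ Module.finrank F (Module.Dual F W) :=
    fun v => Submodule.finrank_le _
  set m := Nat.findGreatest P (Module.finrank F (Module.Dual F W)) with hm
  have hP1 : P (Module.finrank F (fnl H x₁)) := ⟨x₁, hx₁, rfl⟩
  obtain ⟨x, hx, hdim⟩ : P m := Nat.findGreatest_spec (hbd x₁) hP1
  have hmax : ∀ v : W, v ≠ 0 → Module.finrank F (fnl H v) ≤ m := fun v hv =>
    Nat.le_findGreatest (hbd v) ⟨v, hv, rfl⟩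
  have hm2 : 2 ≤ m := h2.trans (hmax x₁ hx₁)
  set U := (fnl H x).dualCoannihilator with hU
  have memU : ∀ {v}, v ∈ U ↔ ∀ φ ∈ fnl H x, φ v = 0 := fun {v} => Submodule.mem_dualCoannihilator v
  have hxU : x ∈ U := memU.2 fun φ hφ => ((mem_fnl hsc).1 hφ).1
  have exU : ∀ {v}, v ∉ U → ∃ φ ∈ fnl H x, φ v ≠ 0 := fun {v} hv => by
    rw [memU] at hv; push Not at hv; exact hv
  -- a functional killing `x` of a centre outside `U` lies in `fnl x`
  have hii : ∀ {y ψ}, IsTv H y ψ → ψ x = 0 → y ∉ U → ψ ∈ fnl H x := by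
    intro y ψ hψ h0 hy
    obtain ⟨φ, hφ, hne⟩ := exU hy
    exact (mem_fnl hsc).2 (((mem_fnl hsc).1 hφ).comm_unit hsc hψ h0 hne)
  have hi := fun {y : W} {ψ : Module.Dual F W} (hy : y ≠ 0) (hψ : IsTv H y ψ) (h0 : ψ x ≠ 0) =>
    fnl_eq_of_ne hsc hmax hdim hy hψ h0
  -- `U` is the line of `x`
  have hUx : U ≤ F ∙ x := by
    by_contra hnle
    obtain ⟨u', hu', hu'x⟩ := SetLike.not_le_iff_exists.1 hnle
    have hUtop : U ≠ ⊤ := by
      intro h
      have : fnl H x = ⊥ := eq_bot_iff.2 fun φ hφ =>
        (Submodule.mem_bot F).2 (LinearMap.ext fun v => memU.1 (h ▸ Submodule.mem_top) φ hφ)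
      rw [this, finrank_bot] at hdim
      omega
    obtain ⟨y0, ψ0, hψ0, u, hu, hmove⟩ : ∃ y0 ψ0, IsTv H y0 ψ0 ∧ ∃ u ∈ U, ψ0 u • y0 ∉ U := by
      by_contra hall
      push Not at hall
      rcases hirr U fun y ψ h v hv => hall y ψ h v hv with h | h
      · exact hx ((Submodule.mem_bot F).1 (h ▸ hxU))
      · exact hUtop h
    have hy0U : y0 ∉ U := fun h => hmove (Submodule.smul_mem _ _ h)
    have hy0 : y0 ≠ 0 := fun h => hy0U (h ▸ zero_mem U)
    have hψ0x : ψ0 x ≠ 0 := fun h0 =>
      hmove (by rw [memU.1 hu _ (hii hψ0 h0 hy0U), zero_smul]; exact zero_mem U)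
    set D := U ⊓ LinearMap.ker ψ0 with hD
    -- functionals of moving centres kill `D`
    have hA : ∀ {z ω}, IsTv H z ω → z ∉ U → ω x ≠ 0 → ∀ d ∈ D, ω d = 0 := by
      intro z ω hω hzU hωx d hd
      by_contra hωd
      have hz : z ≠ 0 := fun h => hzU (h ▸ zero_mem U)
      obtain ⟨φs, hφs, hφsy⟩ := exU hy0U
      set a := -(ω y0 / ω x)
      have hX : IsTv H x ((a / φs y0) • φs) := hsc _ _ ((mem_fnl hsc).1 hφs) _
      have hY := hψ0.conj_tv hX
      set φ1 := (a / φs y0) • φs with hφ1
      have hφ1m : φ1 ∈ fnl H x := Submodule.smul_mem _ _ hφs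
      have hφ1y : φ1 y0 = a := by simp [hφ1, hφsy]
      rw [hφ1y] at hY
      set y := y0 + a • x with hy
      set ψ := ψ0 - ψ0 x • φ1 with hψ
      have hyU : y ∉ U := fun h => hy0U ((Submodule.add_mem_iff_left U (U.smul_mem a hxU)).1 h)
      have hy' : y ≠ 0 := fun h => hyU (h ▸ zero_mem U)
      have hψx : ψ x ≠ 0 := by simp [hψ, memU.1 hxU φ1 hφ1m, hψ0x]
      have hωy : ω y = 0 := by
        simp only [hy, map_add, map_smul, smul_eq_mul, a]; field_simp; ring
      obtain ⟨-, hfy⟩ := hi hy' hY hψx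
      set K := fnl H x ⊓ LinearMap.ker (Module.Dual.eval F W y) with hK
      have hψd : ψ d = 0 := by
        simp [hψ, memU.1 hd.1 φ1 hφ1m, show ψ0 d = 0 from hd.2]
      have hkd : ∀ θ ∈ fnl H y, θ d = 0 := by
        intro θ hθ
        rw [hfy] at hθ
        obtain ⟨κ, hκ, θ', hθ', rfl⟩ := Submodule.mem_sup.1 hθ
        obtain ⟨c, rfl⟩ := Submodule.mem_span_singleton.1 hθ'
        simp [memU.1 hd.1 κ hκ.1, hψd]
      have hkz : ∀ θ ∈ fnl H y, θ z = 0 := by
        intro θ hθ
        by_contra hne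
        exact hωd (hkd ω ((mem_fnl hsc).2 (((mem_fnl hsc).1 hθ).comm_unit hsc hω hωy hne)))
      have hψz : ψ z = 0 := hkz ψ ((mem_fnl hsc).2 hY)
      have hKz : ∀ κ ∈ K, κ z = 0 := fun κ hκ => hkz κ (hfy ▸ Submodule.mem_sup_left hκ)
      obtain ⟨φ0, hφ0, hφ0y⟩ := exU hyU
      have hdec : ∀ v, (∀ κ ∈ K, κ v = 0) → v - (φ0 v / φ0 y) • y ∈ U := by
        intro v hv
        refine memU.2 fun φ hφ => ?_
        have h := hv (φ - (φ y / φ0 y) • φ0)
          ⟨sub_mem hφ (Submodule.smul_mem _ _ hφ0), by simp [hφ0y]⟩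
        simp only [LinearMap.sub_apply, LinearMap.smul_apply, smul_eq_mul] at h
        simp only [map_sub, map_smul, smul_eq_mul]
        rw [← h]; field_simp
      have hKbot : K ≠ ⊥ := by
        intro hK0
        have hle : fnl H x ≤ F ∙ φ0 := fun φ hφ => by
          have h : φ - (φ y / φ0 y) • φ0 ∈ K :=
            ⟨sub_mem hφ (Submodule.smul_mem _ _ hφ0), by simp [hφ0y]⟩
          rw [hK0, Submodule.mem_bot, sub_eq_zero] at h
          rw [h]; exact Submodule.smul_mem _ _ (Submodule.mem_span_singleton_self φ0)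
        have := Submodule.finrank_mono hle
        rw [hdim, finrank_span_singleton (fun h0 => hφ0y (by rw [h0]; rfl))] at this
        omega
      -- some member of `K` is moved together with `x`
      obtain ⟨κ, hκ, w, ν, hν, hκw, hνx⟩ : ∃ κ ∈ K, ∃ w ν, IsTv H w ν ∧ κ w ≠ 0 ∧ ν x ≠ 0 := by
        by_contra hall
        push Not at hall
        have hinv : ∀ x φ, IsTv H x φ → ∀ u ∈ K.dualCoannihilator, φ u • x ∈ K.dualCoannihilator := by
          intro w ν hν v hv
          rw [Submodule.mem_dualCoannihilator] at hv ⊢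
          intro κ hκ
          rcases eq_or_ne (κ w) 0 with h0 | h0
          · simp [h0]
          have hνx : ν x = 0 := hall κ hκ w ν hν h0
          have hwU : w ∉ U := fun h => h0 (memU.1 h κ hκ.1)
          have hνy : ν y = 0 := by
            by_contra hne
            have h' : κ (y + ν y • w) ≠ 0 := by
              simp [show κ y = 0 from hκ.2, hne, h0]
            have := hall κ hκ _ _ (hY.conj_tv hν) h'
            simp [hνx] at this
            exact hψx this
          have hν0 : ν v = 0 := by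
            have := memU.1 (hdec v hv) ν (hii hν hνx hwU)
            simpa [hνy] using this
          simp [hν0]
        rcases hirr K.dualCoannihilator hinv with h | h
        · refine hx ((Submodule.mem_bot F).1 ?_)
          rw [← h, Submodule.mem_dualCoannihilator]
          exact fun κ hκ => memU.1 hxU κ hκ.1
        · refine hKbot (eq_bot_iff.2 fun κ hκ => (Submodule.mem_bot F).2 (LinearMap.ext fun v => ?_))
          exact (Submodule.mem_dualCoannihilator v).1 (h ▸ Submodule.mem_top) κ hκ
      set b := φ0 z / φ0 y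
      set u0 := z - b • y with hu0
      have hu0U : u0 ∈ U := hdec z hKz
      have hκz : IsTv H z κ := hω.comm_unit hsc ((mem_fnl hsc).1 hκ.1) (hKz κ hκ) hωx
      have hκy : IsTv H y κ := hY.comm_unit hsc ((mem_fnl hsc).1 hκ.1) hκ.2 hψx
      have hκu0 : IsTv H u0 κ := by
        have := hκz.add_left (hκy.smul_left hsc (-b))
        rwa [neg_smul, ← sub_eq_add_neg] at this
      have hu0x : ∀ c : F, u0 ≠ c • x := by
        intro c hc
        have hψy : ψ y = 0 := hY.1
        have h := congrArg ψ hc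
        simp [hu0, hψz, hψy] at h
        rcases h with h | h
        · rw [h, zero_smul, hu0, sub_eq_zero] at hc
          have hb : b ≠ 0 := fun hb => hz (by rw [hc, hb, zero_smul])
          rw [hc] at hω
          exact hωd (hkd ω ((mem_fnl hsc).2 (hω.of_smul_left hsc hb)))
        · exact hψx h
      -- a centre in `U` with a functional not killing `x`
      set v := ν u0 • x + (-ν x) • u0 with hv
      have hvU : v ∈ U := add_mem (Submodule.smul_mem _ _ hxU) (Submodule.smul_mem _ _ hu0U)
      have hv0 : v ≠ 0 := by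
        intro h
        refine hu0x (ν u0 / ν x) ?_
        rw [hv, neg_smul, ← sub_eq_add_neg, sub_eq_zero] at h
        calc u0 = (ν x)⁻¹ • (ν x • u0) := by rw [smul_smul, inv_mul_cancel₀ hνx, one_smul]
          _ = _ := by rw [← h, smul_smul, inv_mul_eq_div]
      have hκv : IsTv H v κ :=
        (((mem_fnl hsc).1 hκ.1).smul_left hsc _).add_left (hκu0.smul_left hsc _)
      have hνv : ν v = 0 := by simp [hv]; ring
      exact (hi hv0 (hκv.comm_unit hsc hν hνv hκw) hνx).1 hvU
    -- `D` is invariant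
    have hinv : ∀ x φ, IsTv H x φ → ∀ u ∈ D, φ u • x ∈ D := by
      intro z ω hω d hd
      rcases eq_or_ne z 0 with rfl | hz
      · simp
      by_cases hzU : z ∈ U
      · by_cases hzD : ψ0 z = 0
        · exact Submodule.smul_mem _ _ ⟨hzU, hzD⟩
        have hωx : ω x = 0 := by_contra fun h => (hi hz hω h).1 hzU
        have hz' := hω.conj_tv hψ0
        have hz'U : z + ψ0 z • y0 ∉ U := fun h =>
          hy0U ((Submodule.smul_mem_iff U hzD).1 ((Submodule.add_mem_iff_right U hzU).1 h))
        suffices ω d = 0 by simp [this]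
        rcases eq_or_ne (ω y0) 0 with h0 | h0
        · rw [h0, zero_smul, sub_zero] at hz'
          exact memU.1 hd.1 ω (hii hz' hωx hz'U)
        · have h' := hA hz' hz'U (by simp [hωx, h0, hψ0x]) d hd
          simpa [show ψ0 d = 0 from hd.2] using h'
      · suffices ω d = 0 by simp [this]
        by_cases hωx : ω x = 0
        · exact memU.1 hd.1 ω (hii hω hωx hzU)
        · exact hA hω hzU hωx d hd
    rcases hirr D hinv with h | h
    · refine hu'x (Submodule.mem_span_singleton.2 ⟨ψ0 u' / ψ0 x, ?_⟩)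
      have hmem : u' - (ψ0 u' / ψ0 x) • x ∈ D :=
        ⟨sub_mem hu' (Submodule.smul_mem _ _ hxU), by simp [hψ0x]⟩
      rw [h, Submodule.mem_bot, sub_eq_zero] at hmem
      exact hmem.symm
    · exact hUtop (eq_top_iff.2 (h ▸ inf_le_left))
  have hfx : fnl H x = (F ∙ x).dualAnnihilator := by
    refine le_antisymm (fnl_le x hsc) ?_
    rw [← Subspace.dualCoannihilator_dualAnnihilator_eq (W := fnl H x)]
    exact Submodule.dualAnnihilator_anti hUx
  -- the centres with all functionals span
  let S : Set W := {v | v ≠ 0 ∧ fnl H v = (F ∙ v).dualAnnihilator}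
  have hann : ∀ v : W, v ≠ 0 →
      Module.finrank F (F ∙ v).dualAnnihilator + 1 = Module.finrank F W := fun v hv => by
    have := Subspace.finrank_add_finrank_dualAnnihilator_eq (F ∙ v)
    rw [finrank_span_singleton hv] at this
    omega
  have hstep : ∀ f ∈ S, ∀ z ω, IsTv H z ω → z ≠ 0 → ω f ≠ 0 → z ∈ S := by
    intro f hf z ω hω hz hne
    have hfdim : Module.finrank F (fnl H f) = m := by
      have h1 := hann x hx
      have h2 := hann f hf.1
      rw [← hfx, hdim] at h1
      rw [← hf.2] at h2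
      omega
    refine ⟨hz, Submodule.eq_of_le_of_finrank_le (fnl_le z hsc) ?_⟩
    obtain ⟨hnot, hfz⟩ := fnl_eq_of_ne hsc hmax hfdim hz hω hne
    rw [Submodule.mem_dualCoannihilator] at hnot
    push Not at hnot
    obtain ⟨φ0, hφ0, hne0⟩ := hnot
    set K := fnl H f ⊓ LinearMap.ker (Module.Dual.eval F W z) with hK
    have hspan : fnl H f ≤ K ⊔ F ∙ φ0 := by
      intro φ hφ
      refine Submodule.mem_sup.2 ⟨φ - (φ z / φ0 z) • φ0,
        ⟨sub_mem hφ (Submodule.smul_mem _ _ hφ0), by simp [hne0]⟩,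
        (φ z / φ0 z) • φ0, Submodule.smul_mem _ _ (Submodule.mem_span_singleton_self φ0), by abel⟩
    have h1 := (Submodule.finrank_mono hspan).trans (Submodule.finrank_add_le_finrank_add_finrank _ _)
    rw [finrank_span_singleton (fun h0 => hne0 (by rw [h0]; rfl)), hfdim] at h1
    have h2 : Module.finrank F ↥(K ⊔ F ∙ ω) = Module.finrank F K + 1 := by
      have h := Submodule.finrank_sup_add_finrank_inf_eq K (F ∙ ω)
      have hb : K ⊓ F ∙ ω = ⊥ := by
        rw [eq_bot_iff]
        rintro φ ⟨p1, p2⟩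
        obtain ⟨c, rfl⟩ := Submodule.mem_span_singleton.1 p2
        have := ((mem_fnl hsc).1 p1.1).1
        simp [hne] at this
        simp [this]
      rw [hb, finrank_bot, finrank_span_singleton (fun h0 => hne (by rw [h0]; rfl)), add_zero] at h
      exact h
    have h3 := hann z hz
    have h4 := hann x hx
    rw [← hfx, hdim] at h4
    rw [hfz, h2]
    omega
  have hspanS : ⊤ ≤ Submodule.span F S := by
    have hinv : ∀ x φ, IsTv H x φ → ∀ u ∈ (Submodule.span F S), φ u • x ∈ (Submodule.span F S) := by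
      intro z ω hω v hv
      rcases eq_or_ne z 0 with rfl | hz
      · simp
      by_cases hall : ∀ f ∈ S, ω f = 0
      · have : ω v = 0 := by
          have hle : Submodule.span F S ≤ LinearMap.ker ω := Submodule.span_le.2 hall
          exact hle hv
        simp [this]
      · push Not at hall
        obtain ⟨f, hf, hne⟩ := hall
        exact Submodule.smul_mem _ _ (Submodule.subset_span (hstep f hf z ω hω hz hne))
    rcases hirr (Submodule.span F S) hinv with h | h
    · exact absurd ((Submodule.mem_bot F).1 (h ▸ Submodule.subset_span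
        (show x ∈ S from ⟨hx, hfx⟩))) hx
    · exact h.ge
  let b := Module.Basis.ofSpan hspanS
  have hb : ∀ i, b i ∈ S := fun i => Module.Basis.ofSpan_subset hspanS ⟨i, rfl⟩
  haveI := FiniteDimensional.fintypeBasisIndex b
  haveI : Nontrivial _ := Fintype.one_lt_card_iff_nontrivial.1 (show 1 < Fintype.card _ by
    rw [← Module.finrank_eq_card_basis b]
    have := hann x hx
    rw [← hfx, hdim] at this
    omega)
  intro v φ h0
  refine ⟨h0, LinearEquiv.transvection h0, mem_of_det_eq_one b (fun i j hij c => ?_) ?_, fun w => rfl⟩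
  · rw [← mem_fnl hsc, (hb i).2, Submodule.mem_dualAnnihilator]
    intro w hw
    obtain ⟨e, rfl⟩ := Submodule.mem_span_singleton.1 hw
    simp [hij]
  · rw [LinearEquiv.transvection.coe_toLinearMap, LinearMap.transvection.det, h0, add_zero]

end Cfsg.Agent.RootSub.Transv
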