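import Cfsg.Agent.RootSub.Transv.Component

/-!
# A component acts faithfully and irreducibly on centres modulo fixed centres
-/

set_option autoImplicit false

namespace Cfsg.Agent.RootSub.Transv

open Cfsg

variable {p : ℕ} [Fact p.Prime] {V : Type*} [AddCommGroup V] [Module (ZMod p) V]
variable {H : Subgroup (V ≃ₗ[ZMod p] V)}

/-- The fixed part of the span of the centres. -/
abbrev clsRad (H : Subgroup (V ≃ₗ[ZMod p] V)) (X : V × Module.Dual (ZMod p) V) :
    Submodule (ZMod p) (clsSpan H X) :=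
  (clsFix H X).comap (clsSpan H X).subtype

/-- The representation of a component group on the quotient. -/
noncomputable def rho (hs : Setup H) (X : V × Module.Dual (ZMod p) V) : clsGroup H X →*
    ((clsSpan H X ⧸ clsRad H X) ≃ₗ[ZMod p] (clsSpan H X ⧸ clsRad H X)) :=
  (LinearMap.GeneralLinearGroup.generalLinearEquiv (ZMod p) _).toMonoidHom.comp
    (MonoidHom.toHomUnits
      { toFun := fun g => (clsRad H X).mapQ (clsRad H X)
          (((g : V ≃ₗ[ZMod p] V) : V →ₗ[ZMod p] V).restrict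
            (fun u hu => apply_mem_clsSpan hs _ (clsGroup_le X g.2) u hu))
          (fun r hr => apply_mem_clsFix hs _ (clsGroup_le X g.2) _ hr)
        map_one' := by
          apply Submodule.linearMap_qext; ext u; rfl
        map_mul' := fun a b => by
          apply Submodule.linearMap_qext; ext u; rfl })

variable (hs : Setup H) {X : V × Module.Dual (ZMod p) V}

theorem rho_mk (g : clsGroup H X) (u : clsSpan H X) :
    rho hs X g (Submodule.Quotient.mk u) = Submodule.Quotient.mk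
      (⟨(g : V ≃ₗ[ZMod p] V) u, apply_mem_clsSpan hs _ (clsGroup_le X g.2) _ u.2⟩ : clsSpan H X) :=
  rfl

theorem prime_ne_two (h : (2 : ZMod p) ≠ 0) : p ≠ 2 := fun hp => h (by
  subst hp; exact ZMod.natCast_self 2)

include hs in
theorem rho_injective : Function.Injective (rho hs X) := by
  rw [← MonoidHom.ker_eq_bot_iff, eq_bot_iff]
  intro g hg
  have hker : ∀ k : clsGroup H X, k ∈ (rho hs X).ker ↔
      ∀ u ∈ clsSpan H X, (k : V ≃ₗ[ZMod p] V) u - u ∈ clsFix H X := by
    intro k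
    rw [MonoidHom.mem_ker]
    constructor
    · intro h u hu
      have h1 := LinearEquiv.congr_fun h (Submodule.Quotient.mk (⟨u, hu⟩ : clsSpan H X))
      rw [rho_mk] at h1
      exact (Submodule.Quotient.eq (clsRad H X)).1 h1
    · intro h
      refine LinearEquiv.ext fun q => ?_
      obtain ⟨u, rfl⟩ := Submodule.Quotient.mk_surjective _ q
      rw [rho_mk]
      exact (Submodule.Quotient.eq (clsRad H X)).2 (h u u.2)
  set Q := (rho hs X).ker.map (clsGroup H X).subtype
  have hQ : Q = ⊥ := by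
    refine eq_bot_of_pow hs.core ((Subgroup.map_subtype_le _).trans (clsGroup_le X)) ?_ ?_
    · rintro h hh _ ⟨k, hk, rfl⟩
      refine ⟨⟨_, conj_mem_clsGroup hs X h hh _ k.2⟩, (hker _).2 fun u hu => ?_, rfl⟩
      have h1 := (hker k).1 hk _ (apply_mem_clsSpan hs _ (inv_mem hh) u hu)
      have h2 := apply_mem_clsFix hs h hh _ h1
      rw [map_sub] at h2
      simpa using h2
    · rintro _ ⟨k, hk, rfl⟩
      refine ⟨1, LinearEquiv.ext fun v => ?_⟩
      obtain ⟨hmv, hfx⟩ := clsGroup_move X k.2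
      show (((k : V ≃ₗ[ZMod p] V)) ^ p ^ 1) v = v
      set g := (k : V ≃ₗ[ZMod p] V)
      set r := g v - v with hr
      set d := g r - r with hd
      have hdfix : g d = d := hfx d ((hker k).1 hk r (hmv v))
      have hformula : ∀ n : ℕ, (g ^ n) v = v + n • r + n.choose 2 • d := by
        intro n
        induction n with
        | zero => simp
        | succ n ih =>
          rw [pow_succ', LinearEquiv.mul_apply, ih, map_add, map_add, map_nsmul, map_nsmul, hdfix,
            show g r = r + d by rw [hd]; abel, show g v = v + r by rw [hr]; abel,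
            Nat.choose_succ_succ' n 1, Nat.choose_one_right, add_nsmul, add_nsmul, one_nsmul,
            nsmul_add]
          abel
      have hp : p.Prime := Fact.out
      obtain ⟨e, he⟩ : p ∣ p.choose 2 := hp.dvd_choose_self two_ne_zero
        (lt_of_le_of_ne hp.two_le (Ne.symm (prime_ne_two hs.two)))
      have h0 : (p * e) • d = 0 := by
        first
          | (rw [mul_nsmul', nsmul_prime])
          | (rw [mul_nsmul, nsmul_prime])
      rw [pow_one, hformula, he, h0, nsmul_prime, add_zero, add_zero]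
  refine Subgroup.mem_bot.2 (Subtype.ext ?_)
  have : (g : V ≃ₗ[ZMod p] V) ∈ Q := ⟨g, hg, rfl⟩
  rw [hQ] at this
  exact Subgroup.mem_bot.1 this

theorem isTv_mem {x : V} {φ : Module.Dual (ZMod p) V} (h : IsTv (clsGroup H X) x φ) (hx : x ≠ 0)
    (hφ : φ ≠ 0) : x ∈ clsSpan H X ∧ ∀ r ∈ clsFix H X, φ r = 0 := by
  obtain ⟨-, g, hg, hgv⟩ := h
  obtain ⟨hmv, hfx⟩ := clsGroup_move X hg
  obtain ⟨v, hv⟩ : ∃ v, φ v ≠ 0 := by
    by_contra h
    push Not at h
    exact hφ (LinearMap.ext h)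
  refine ⟨?_, fun r hr => ?_⟩
  · have := hmv v
    rw [hgv, add_sub_cancel_left] at this
    exact (Submodule.smul_mem_iff _ hv).1 this
  · have := hfx r hr
    rw [hgv, add_eq_left, smul_eq_zero] at this
    exact this.resolve_right hx

/-- A functional killing the fixed space, on the quotient. -/
def bar (φ : Module.Dual (ZMod p) V) (h : ∀ r ∈ clsFix H X, φ r = 0) :
    Module.Dual (ZMod p) (clsSpan H X ⧸ clsRad H X) :=
  (clsRad H X).liftQ (φ.comp (clsSpan H X).subtype) fun r hr => h _ hr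

theorem bar_mk {φ : Module.Dual (ZMod p) V} (h : ∀ r ∈ clsFix H X, φ r = 0) (u : clsSpan H X) :
    bar φ h (Submodule.Quotient.mk u) = φ u := rfl

theorem rho_tv_apply {x : V} {φ : Module.Dual (ZMod p) V} {g : clsGroup H X}
    (hg : ∀ v, (g : V ≃ₗ[ZMod p] V) v = v + φ v • x) (hx : x ∈ clsSpan H X)
    (h : ∀ r ∈ clsFix H X, φ r = 0) (q : clsSpan H X ⧸ clsRad H X) :
    rho hs X g q = q + bar φ h q • Submodule.Quotient.mk (⟨x, hx⟩ : clsSpan H X) := by
  obtain ⟨u, rfl⟩ := Submodule.Quotient.mk_surjective _ q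
  rw [rho_mk, bar_mk, ← Submodule.Quotient.mk_smul, ← Submodule.Quotient.mk_add]
  exact congrArg _ (Subtype.ext (hg u))

theorem isTv_image {x : V} {φ : Module.Dual (ZMod p) V} (ht : IsTv (clsGroup H X) x φ)
    (hx : x ∈ clsSpan H X) (h : ∀ r ∈ clsFix H X, φ r = 0) :
    IsTv (rho hs X).range (Submodule.Quotient.mk (⟨x, hx⟩ : clsSpan H X)) (bar φ h) := by
  obtain ⟨h0, g, hg, hgv⟩ := ht
  exact ⟨by rw [bar_mk]; exact h0, rho hs X ⟨g, hg⟩, ⟨_, rfl⟩,
    fun q => rho_tv_apply hs (g := ⟨g, hg⟩) hgv hx h q⟩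

theorem isTv_of_cls {Z : V × Module.Dual (ZMod p) V} (hZ : Z ∈ cls H X) :
    IsTv (clsGroup H X) Z.1 Z.2 := by
  obtain ⟨h0, g, -, hgv⟩ := hZ.1.2.2
  exact ⟨h0, g, Subgroup.subset_closure ⟨Z, hZ, hgv⟩, hgv⟩

theorem fix_of_cls {Z : V × Module.Dual (ZMod p) V} (hZ : Z ∈ cls H X) :
    ∀ r ∈ clsFix H X, Z.2 r = 0 := fun _ hr => mem_clsFix.1 hr Z hZ

include hs in
theorem mk_centre_ne_zero {Z : V × Module.Dual (ZMod p) V} (hZ : Z ∈ cls H X) :
    Submodule.Quotient.mk (p := clsRad H X) (⟨Z.1, fst_mem_clsSpan hZ⟩ : clsSpan H X) ≠ 0 := by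
  intro h
  rw [Submodule.Quotient.mk_eq_zero] at h
  obtain ⟨⟨Y, hY, hne⟩, -⟩ := exists_out hs hZ.1
  rw [← cls_eq hs hZ.2] at hY
  exact hne (mem_clsFix.1 h Y hY)

include hs in
theorem bar_ne_zero {Z : V × Module.Dual (ZMod p) V} (hZ : Z ∈ cls H X) :
    bar Z.2 (fix_of_cls hZ) ≠ 0 := by
  intro h
  obtain ⟨-, Y, hY, hne⟩ := exists_out hs hZ.1
  rw [← cls_eq hs hZ.2] at hY
  exact hne (LinearMap.congr_fun h (Submodule.Quotient.mk (⟨Y.1, fst_mem_clsSpan hY⟩ : clsSpan H X)))

theorem tvIrred_range : TvIrred (rho hs X).range := by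
  intro U hU
  by_cases hU0 : U = ⊥
  · exact Or.inl hU0
  right
  obtain ⟨q, hq, hq0⟩ := Submodule.exists_mem_ne_zero_of_ne_bot hU0
  obtain ⟨u, rfl⟩ := Submodule.Quotient.mk_surjective _ q
  rw [ne_eq, Submodule.Quotient.mk_eq_zero] at hq0
  obtain ⟨Z, hZ, hne⟩ : ∃ Z ∈ cls H X, Z.2 u ≠ 0 := by
    by_contra h
    push Not at h
    exact hq0 (mem_clsFix.2 h)
  have hmove : ∀ {Z} (hZ : Z ∈ cls H X) (v : clsSpan H X), Submodule.Quotient.mk v ∈ U → Z.2 v ≠ 0 →
      Submodule.Quotient.mk (p := clsRad H X) (⟨Z.1, fst_mem_clsSpan hZ⟩ : clsSpan H X) ∈ U := by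
    intro Z hZ v hv hne
    have := hU _ _ (isTv_image hs (isTv_of_cls hZ) (fst_mem_clsSpan hZ) (fix_of_cls hZ)) _ hv
    rw [bar_mk] at this
    exact (Submodule.smul_mem_iff U hne).1 this
  have hstart := hmove hZ u hq hne
  have hall : ∀ W, TConn H Z W → ∃ hW : W ∈ cls H X,
      Submodule.Quotient.mk (p := clsRad H X) (⟨W.1, fst_mem_clsSpan hW⟩ : clsSpan H X) ∈ U := by
    intro W hW
    induction hW with
    | refl => exact ⟨hZ, hstart⟩
    | @tail A B _ hAB ih =>
      obtain ⟨hA, hAU⟩ := ih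
      have hB : B ∈ cls H X := ⟨hAB.2.1, hA.2.trans (Relation.ReflTransGen.single hAB)⟩
      exact ⟨hB, hmove hB _ hAU hAB.2.2⟩
  refine eq_top_iff.2 fun q _ => ?_
  obtain ⟨⟨w, hw⟩, rfl⟩ := Submodule.Quotient.mk_surjective _ q
  have key : ∀ w (hw : w ∈ clsSpan H X),
      Submodule.Quotient.mk (p := clsRad H X) (⟨w, hw⟩ : clsSpan H X) ∈ U := by
    intro w hw
    induction hw using Submodule.span_induction with
    | mem x hx =>
      obtain ⟨W, hW, rfl⟩ := hx
      obtain ⟨_, hW'⟩ := hall W ((TConn.symm hs hZ.2).trans hW.2)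
      exact hW'
    | zero => exact zero_mem U
    | add x y hx hy h1 h2 => exact add_mem h1 h2
    | smul c x hx h1 => exact Submodule.smul_mem U c h1
  exact key w hw

theorem range_le_closure : (rho hs X).range ≤
    Subgroup.closure (rho hs X '' (Subtype.val ⁻¹' elts (cls H X))) := by
  rw [← MonoidHom.map_closure, MonoidHom.range_eq_map]
  refine Subgroup.map_mono ?_
  exact le_of_eq Subgroup.closure_closure_coe_preimage.symm

theorem image_elts_transvection : ∀ g ∈ rho hs X '' (Subtype.val ⁻¹' elts (cls H X)),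
    ∃ (x : clsSpan H X ⧸ clsRad H X) (φ : Module.Dual (ZMod p) (clsSpan H X ⧸ clsRad H X)),
      φ x = 0 ∧ ∀ v, g v = v + φ v • x := by
  rintro _ ⟨k, ⟨Z, hZ, hk⟩, rfl⟩
  exact ⟨_, bar Z.2 (fix_of_cls hZ), hZ.1.2.2.1,
    fun q => rho_tv_apply hs hk (fst_mem_clsSpan hZ) (fix_of_cls hZ) q⟩

end Cfsg.Agent.RootSub.Transv
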