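import Cfsg.Agent.RootSub.Transv.Quotient

/-!
# The centres of a component complement its fixed space
-/

set_option autoImplicit false

namespace Cfsg.Agent.RootSub.Transv

open Cfsg

section Transitive

variable {F : Type*} [Field F] {W : Type*} [AddCommGroup W] [Module F W]
variable {H : Subgroup (W ≃ₗ[F] W)}

theorem exists_dual_pair {x v : W} (hx : x ≠ 0) (hv : v ≠ 0) :
    ∃ θ : Module.Dual F W, θ x ≠ 0 ∧ θ v ≠ 0 := by
  obtain ⟨θ1, h1⟩ := Module.Projective.exists_dual_ne_zero F hx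
  obtain ⟨θ2, h2⟩ := Module.Projective.exists_dual_ne_zero F hv
  by_cases c1 : θ1 v = 0
  swap
  · exact ⟨θ1, h1, c1⟩
  by_cases c2 : θ2 x = 0
  swap
  · exact ⟨θ2, c2, h2⟩
  exact ⟨θ1 + θ2, by simp [c2, h1], by simp [c1, h2]⟩

theorem exists_vec_pair {φ f : Module.Dual F W} (hφ : φ ≠ 0) (hf : f ≠ 0) :
    ∃ w : W, φ w ≠ 0 ∧ f w ≠ 0 := by
  obtain ⟨w1, h1⟩ : ∃ w, φ w ≠ 0 := by
    by_contra h; push Not at h; exact hφ (LinearMap.ext h)
  obtain ⟨w2, h2⟩ : ∃ w, f w ≠ 0 := by
    by_contra h; push Not at h; exact hf (LinearMap.ext h)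
  by_cases c1 : f w1 = 0
  swap
  · exact ⟨w1, h1, c1⟩
  by_cases c2 : φ w2 = 0
  swap
  · exact ⟨w2, c2, h2⟩
  exact ⟨w1 + w2, by simp [c2, h1], by simp [c1, h2]⟩

/-- Groups containing all transvections move any transvection to any other. -/
theorem exists_map_tv (hall : ∀ v φ, φ v = 0 → IsTv H v φ) {x v : W} {φ f : Module.Dual F W}
    (hx : x ≠ 0) (hφ : φ ≠ 0) (h0 : φ x = 0) (hv : v ≠ 0) (hf : f ≠ 0) (hf0 : f v = 0) :
    ∃ g ∈ H, ∃ c d : F, c ≠ 0 ∧ d ≠ 0 ∧ g x = c • v ∧ ∀ u, φ (g⁻¹ u) = d * f u := by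
  obtain ⟨θ, hθx, hθv⟩ := exists_dual_pair (F := F) hx hv
  set c := θ x / θ v
  have hc : c ≠ 0 := div_ne_zero hθx hθv
  obtain ⟨-, g₁, hg₁, hg₁v⟩ := hall (c • v - x) ((θ x)⁻¹ • θ) (by simp [c, hθv])
  have hg₁x : g₁ x = c • v := by simp [hg₁v, hθx]
  set φ' := φ.comp g₁.symm.toLinearMap with hφ'
  have hφ'v : φ' v = 0 := by
    have : φ' (c • v) = 0 := by rw [← hg₁x]; simp [φ', h0]
    rw [map_smul, smul_eq_mul, mul_eq_zero] at this
    exact this.resolve_left hc
  have hφ'0 : φ' ≠ 0 := fun h => hφ (LinearMap.ext fun u => by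
    simpa [φ'] using LinearMap.congr_fun h (g₁ u))
  obtain ⟨w, hφw, hfw⟩ := exists_vec_pair hφ'0 hf
  set d := φ' w / f w
  set θ' := (φ' w)⁻¹ • (φ' - d • f)
  have hθ'w : θ' w = 0 := by simp [θ', d, hfw]
  obtain ⟨-, g₂, hg₂, hg₂v⟩ := hall w θ' hθ'w
  refine ⟨g₂ * g₁, mul_mem hg₂ hg₁, c, d, hc, div_ne_zero hφw hfw, ?_, fun u => ?_⟩
  · show g₂ (g₁ x) = c • v
    rw [hg₁x, hg₂v]
    simp [θ', hφ'v, hf0]
  · have e : g₂.symm u = u - θ' u • w := by
      rw [LinearEquiv.symm_apply_eq, hg₂v]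
      simp [hθ'w]
    show φ' (g₂.symm u) = d * f u
    rw [e, map_sub, map_smul]
    simp only [θ', LinearMap.smul_apply, LinearMap.sub_apply, smul_eq_mul]
    field_simp
    ring

end Transitive

variable {p : ℕ} [Fact p.Prime] {V : Type*} [AddCommGroup V] [Module (ZMod p) V]
variable {H : Subgroup (V ≃ₗ[ZMod p] V)} {X : V × Module.Dual (ZMod p) V}

/-- A component with an element inducing `-1` splits. -/
theorem split_of_neg (hs : Setup H)
    (hneg : (LinearEquiv.neg (ZMod p) : (clsSpan H X ⧸ clsRad H X) ≃ₗ[ZMod p] _) ∈ (rho hs X).range) :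
    clsSpan H X ⊓ clsFix H X = ⊥ ∧ clsSpan H X ⊔ clsFix H X = ⊤ := by
  obtain ⟨z, hz⟩ := hneg
  have h2 := hs.two
  have hzz : z * z = 1 := rho_injective hs (by
    rw [map_mul, map_one, hz]
    exact LinearEquiv.ext fun q => by show -(-q) = q; rw [neg_neg])
  obtain ⟨g, hg⟩ := z
  have hgg : ∀ v, g (g v) = v := fun v =>
    LinearEquiv.congr_fun (congrArg Subtype.val hzz) v
  obtain ⟨hmv, hfx⟩ := clsGroup_move X hg
  have hcomm : ∀ Z ∈ cls H X, g Z.1 = -Z.1 ∧ ∀ v, Z.2 (g v) = -Z.2 v := by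
    intro Z hZ
    obtain ⟨h0, t, ht, htv⟩ := isTv_of_cls hZ
    have hc : (⟨g, hg⟩ : clsGroup H X) * ⟨t, ht⟩ = ⟨t, ht⟩ * ⟨g, hg⟩ := rho_injective hs (by
      rw [map_mul, map_mul, hz]
      exact LinearEquiv.ext fun q => by
        show -(rho hs X ⟨t, ht⟩ q) = rho hs X ⟨t, ht⟩ (-q)
        rw [map_neg])
    have hc' : ∀ v, g (t v) = t (g v) := fun v => LinearEquiv.congr_fun (congrArg Subtype.val hc) v
    have hrel : ∀ v, Z.2 v • g Z.1 = Z.2 (g v) • Z.1 := by
      intro v
      have := hc' v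
      rw [htv, htv, map_add, map_smul] at this
      exact add_left_cancel this
    obtain ⟨v, hv⟩ : ∃ v, Z.2 v ≠ 0 := by
      by_contra h; push Not at h; exact hZ.1.2.1 (LinearMap.ext h)
    set a := (Z.2 v)⁻¹ * Z.2 (g v)
    have hga : g Z.1 = a • Z.1 := by
      have := congrArg ((Z.2 v)⁻¹ • ·) (hrel v)
      simpa [smul_smul, inv_mul_cancel₀ hv] using this
    have ha : a = -1 := by
      have h1 := LinearEquiv.congr_fun hz (Submodule.Quotient.mk (⟨Z.1, fst_mem_clsSpan hZ⟩ : clsSpan H X))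
      rw [rho_mk] at h1
      have h3 : Submodule.Quotient.mk (p := clsRad H X)
          (⟨g Z.1, apply_mem_clsSpan hs _ (clsGroup_le X hg) _ (fst_mem_clsSpan hZ)⟩ : clsSpan H X) =
          a • Submodule.Quotient.mk (⟨Z.1, fst_mem_clsSpan hZ⟩ : clsSpan H X) := by
        rw [← Submodule.Quotient.mk_smul]; exact congrArg _ (Subtype.ext hga)
      have h4 := h3.symm.trans h1
      rw [LinearEquiv.neg_apply, ← neg_one_smul (ZMod p), ← sub_eq_zero, ← sub_smul, smul_eq_zero] at h4
      exact sub_eq_zero.1 (h4.resolve_right (mk_centre_ne_zero hs hZ))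
    refine ⟨by rw [hga, ha, neg_one_smul], fun w => ?_⟩
    have := hrel w
    rw [hga, ha, smul_smul, mul_neg_one, ← sub_eq_zero, ← sub_smul, smul_eq_zero, sub_eq_zero] at this
    exact (this.resolve_right hZ.1.1).symm
  have hgS : ∀ u ∈ clsSpan H X, g u = -u := by
    intro u hu
    induction hu using Submodule.span_induction with
    | mem x hx => obtain ⟨Z, hZ, rfl⟩ := hx; exact (hcomm Z hZ).1
    | zero => simp
    | add x y _ _ h1 h2 => rw [map_add, h1, h2, neg_add]
    | smul c x _ h1 => rw [map_smul, h1, smul_neg]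
  constructor
  · rw [eq_bot_iff]
    rintro r ⟨hr1, hr2⟩
    have h := hgS r hr1
    rw [hfx r hr2, eq_neg_iff_add_eq_zero, ← two_smul (ZMod p), smul_eq_zero] at h
    exact (Submodule.mem_bot _).2 (h.resolve_left h2)
  · refine eq_top_iff.2 fun v _ => Submodule.mem_sup.2
      ⟨(2 : ZMod p)⁻¹ • (v - g v), Submodule.smul_mem _ _ ?_, (2 : ZMod p)⁻¹ • (v + g v),
        Submodule.smul_mem _ _ ?_, ?_⟩
    · have := neg_mem (hmv v)
      rwa [neg_sub] at this
    · refine mem_clsFix.2 fun Z hZ => ?_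
      rw [map_add, (hcomm Z hZ).2, add_neg_cancel]
    · rw [← smul_add, show v - g v + (v + g v) = (2 : ZMod p) • v by rw [two_smul]; abel, smul_smul,
        inv_mul_cancel₀ h2, one_smul]

/-- A component inducing all transvections in dimension at least three splits. -/
theorem split_of_full [Finite V] (hs : Setup H) (hX : X ∈ Tvs H)
    (hall : ∀ v φ, φ v = 0 → IsTv (rho hs X).range v φ)
    (hn : 3 ≤ Module.finrank (ZMod p) (clsSpan H X ⧸ clsRad H X)) :
    clsSpan H X ⊓ clsFix H X = ⊥ ∧ clsSpan H X ⊔ clsFix H X = ⊤ := by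
  classical
  set Q := clsSpan H X ⧸ clsRad H X with hQdef
  have hn' : 3 ≤ Module.finrank (ZMod p) Q := hn
  let b := Module.finBasis (ZMod p) Q
  have hXc : X ∈ cls H X := ⟨hX, Relation.ReflTransGen.refl⟩
  have hsc := scalarClosed (clsGroup H X)
  -- lifts of the transvections of the basis
  have hlift : ∀ i j, i ≠ j → ∃ (u : V) (A : Module.Dual (ZMod p) V) (hu : u ∈ clsSpan H X)
      (_ : ∀ r ∈ clsFix H X, A r = 0), IsTv (clsGroup H X) u A ∧
      Submodule.Quotient.mk (p := clsRad H X) (⟨u, hu⟩ : clsSpan H X) = b i ∧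
      ∀ w : clsSpan H X, A w = b.coord j (Submodule.Quotient.mk w) := by
    intro i j hij
    obtain ⟨k, ⟨g, rfl⟩, c, d, hc, hd, hgx, hgφ⟩ := exists_map_tv hall
      (mk_centre_ne_zero hs hXc) (bar_ne_zero hs hXc) hXc.1.2.2.1 (b.ne_zero i)
      (f := b.coord j) (fun h => by simpa using LinearMap.congr_fun h (b j)) (by simp [hij])
    have hgH := clsGroup_le X g.2
    have ht := hsc _ _ (((isTv_of_cls hXc).conj g.2).smul_left hsc c⁻¹) d⁻¹
    refine ⟨_, _, Submodule.smul_mem _ _ (apply_mem_clsSpan hs _ hgH _ (fst_mem_clsSpan hXc)),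
      fun r hr => ?_, ht, ?_, fun w => ?_⟩
    · simp only [LinearMap.smul_apply, LinearMap.comp_apply, smul_eq_mul]
      exact mul_eq_zero_of_right _ (mem_clsFix.1 (apply_mem_clsFix hs _ (inv_mem hgH) r hr) X hXc)
    · rw [rho_mk] at hgx
      show Submodule.Quotient.mk (c⁻¹ • (⟨_, apply_mem_clsSpan hs _ hgH _ (fst_mem_clsSpan hXc)⟩ : clsSpan H X)) = b i
      rw [Submodule.Quotient.mk_smul, hgx, smul_smul, inv_mul_cancel₀ hc, one_smul]
    · have := hgφ (Submodule.Quotient.mk w)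
      rw [← map_inv, rho_mk, bar_mk] at this
      simp only [LinearMap.smul_apply, LinearMap.comp_apply, smul_eq_mul]
      show d⁻¹ * X.2 ((g : V ≃ₗ[ZMod p] V)⁻¹ w) = _
      rw [show X.2 ((g : V ≃ₗ[ZMod p] V)⁻¹ w) = d * b.coord j (Submodule.Quotient.mk w) from this,
        inv_mul_cancel_left₀ hd]
  choose! u A hu hA htv hub hAb using hlift
  -- the lifts depend on one index only
  have hagree : ∀ i k j, i ≠ k → k ≠ j → i ≠ j → u i k = u i j ∧ A k j = A i j := by
    intro i k j hik hkj hij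
    have h1 : A k j (u i k) = 0 := by
      rw [show u i k = ((⟨u i k, hu i k hik⟩ : clsSpan H X) : V) from rfl, hAb k j hkj, hub i k hik]
      simp [hij]
    have h2 : A i k (u k j) = 1 := by
      rw [show u k j = ((⟨u k j, hu k j hkj⟩ : clsSpan H X) : V) from rfl, hAb i k hik, hub k j hkj]
      simp
    have ht : IsTv (clsGroup H X) (u i k) (A k j) :=
      (htv i k hik).comm_unit hsc (htv k j hkj) h1 (by rw [h2]; exact one_ne_zero)
    obtain ⟨-, g, hg, hgv⟩ := ht
    obtain ⟨-, g', hg', hg'v⟩ := htv i j hij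
    have he : (⟨g, hg⟩ : clsGroup H X) = ⟨g', hg'⟩ := rho_injective hs (LinearEquiv.ext fun q => by
      rw [rho_tv_apply hs (g := ⟨g, hg⟩) hgv (hu i k hik) (hA k j hkj),
        rho_tv_apply hs (g := ⟨g', hg'⟩) hg'v (hu i j hij) (hA i j hij)]
      obtain ⟨w, rfl⟩ := Submodule.Quotient.mk_surjective _ q
      rw [bar_mk, bar_mk, hAb k j hkj, hAb i j hij, hub i k hik, hub i j hij])
    have hev : ∀ v, A k j v • u i k = A i j v • u i j := fun v => by
      have := LinearEquiv.congr_fun (congrArg Subtype.val he) v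
      show _ = _
      rw [show g v = v + A k j v • u i k from hgv v, show g' v = v + A i j v • u i j from hg'v v] at this
      exact add_left_cancel this
    obtain ⟨w, hw⟩ := Submodule.Quotient.mk_surjective _ (b j)
    have e1 : A k j w = 1 := by rw [hAb k j hkj, hw]; simp
    have e2 : A i j w = 1 := by rw [hAb i j hij, hw]; simp
    have e3 : u i k = u i j := by simpa [e1, e2] using hev w
    refine ⟨e3, LinearMap.ext fun v => ?_⟩
    have hui : u i k ≠ 0 := fun h => b.ne_zero i (by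
      rw [← hub i k hik]
      exact (Submodule.Quotient.mk_eq_zero _).2 (by simp [h]))
    exact smul_left_injective (ZMod p) hui (show A k j v • u i k = A i j v • u i k by rw [hev v, e3])
  have hother : ∀ i : Fin (Module.finrank (ZMod p) Q), ∃ j, j ≠ i := fun i => by
    haveI : Nontrivial (Fin (Module.finrank (ZMod p) Q)) := Fin.nontrivial_iff_two_le.2 (by omega)
    exact exists_ne i
  choose o ho using hother
  let u₀ : Fin (Module.finrank (ZMod p) Q) → V := fun i => u i (o i)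
  let A₀ : Fin (Module.finrank (ZMod p) Q) → Module.Dual (ZMod p) V := fun j => A (o j) j
  have hone : ∀ i j, i ≠ j → u i j = u₀ i ∧ A i j = A₀ j := by
    intro i j hij
    constructor
    · rcases eq_or_ne j (o i) with rfl | h
      · rfl
      · exact (hagree i j (o i) hij h (ho i).symm).1
    · rcases eq_or_ne i (o j) with rfl | h
      · rfl
      · exact ((hagree i (o j) j h (ho j) hij).2).symm
  -- the lifts generate the component group
  set L : Subgroup (clsGroup H X) :=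
    Subgroup.closure {g | ∃ i j, i ≠ j ∧ ∃ c : ZMod p, ∀ v, (g : V ≃ₗ[ZMod p] V) v = v + (c * A₀ j v) • u₀ i} with hL
  have hLtop : ∀ g : clsGroup H X, g ∈ L := by
    intro g
    haveI : Nontrivial (Fin (Module.finrank (ZMod p) Q)) := Fin.nontrivial_iff_two_le.2 (by omega)
    have hdet : LinearMap.det (rho hs X g : Q →ₗ[ZMod p] Q) = 1 := by
      have hle : (rho hs X).range ≤ (LinearEquiv.det (R := ZMod p) (M := Q)).ker := by
        refine (range_le_closure hs).trans ((Subgroup.closure_le _).2 fun t ht => ?_)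
        obtain ⟨x, φ, h0, hx⟩ := image_elts_transvection hs t ht
        exact Units.ext (by rw [LinearEquiv.coe_det]; exact det_eq_one_of_isTv h0 hx)
      have := congrArg Units.val (MonoidHom.mem_ker.1 (hle ⟨g, rfl⟩))
      rwa [LinearEquiv.coe_det] at this
    have hm : rho hs X g ∈ L.map (rho hs X) := by
      refine mem_of_det_eq_one b (fun i j hij c => ⟨by simp [hij], ?_⟩) hdet
      obtain ⟨-, t, ht, htc⟩ := hsc _ _ (htv i j hij) c
      refine ⟨rho hs X ⟨t, ht⟩, Subgroup.mem_map_of_mem _ (Subgroup.subset_closure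
        ⟨i, j, hij, c, fun v => ?_⟩), fun q => ?_⟩
      · show t v = _
        rw [htc, (hone i j hij).1, (hone i j hij).2]; rfl
      · rw [rho_tv_apply hs (g := ⟨t, ht⟩) htc (hu i j hij) (fun r hr => by simp [hA i j hij r hr]),
          hub i j hij]
        obtain ⟨w, rfl⟩ := Submodule.Quotient.mk_surjective _ q
        rw [bar_mk, LinearMap.smul_apply, LinearMap.smul_apply, hAb i j hij]
    obtain ⟨g', hg', he⟩ := hm
    exact rho_injective hs he ▸ hg'
  set S' := Submodule.span (ZMod p) (Set.range u₀)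
  have hgen_move : ∀ g : clsGroup H X, ∀ v, (g : V ≃ₗ[ZMod p] V) v - v ∈ S' ∧
      ((∀ j, A₀ j v = 0) → (g : V ≃ₗ[ZMod p] V) v = v) := by
    have hle : L ≤ (moveInto S' ⊓ fixing (⨅ j, LinearMap.ker (A₀ j))).comap (clsGroup H X).subtype := by
      rw [hL, Subgroup.closure_le]
      rintro g ⟨i, j, -, c, hg⟩
      refine ⟨fun v => ?_, fun v hv => ?_⟩
      · show (g : V ≃ₗ[ZMod p] V) v - v ∈ S'
        rw [hg, add_sub_cancel_left]
        exact Submodule.smul_mem _ _ (Submodule.subset_span ⟨i, rfl⟩)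
      · show (g : V ≃ₗ[ZMod p] V) v = v
        rw [hg, show A₀ j v = 0 from (Submodule.mem_iInf _).1 hv j, mul_zero, zero_smul, add_zero]
    intro g v
    exact ⟨(hle (hLtop g)).1 v, fun h => (hle (hLtop g)).2 v ((Submodule.mem_iInf _).2 h)⟩
  have hu₀ : ∀ i, u₀ i ∈ clsSpan H X := fun i => hu i (o i) (ho i).symm
  have hS : clsSpan H X = S' := by
    refine le_antisymm (Submodule.span_le.2 ?_) (Submodule.span_le.2 ?_)
    · rintro _ ⟨Z, hZ, rfl⟩
      obtain ⟨-, g, hg, hgv⟩ := isTv_of_cls hZ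
      obtain ⟨v, hv⟩ : ∃ v, Z.2 v ≠ 0 := by
        by_contra h; push Not at h; exact hZ.1.2.1 (LinearMap.ext h)
      have := (hgen_move ⟨g, hg⟩ v).1
      rw [show ((⟨g, hg⟩ : clsGroup H X) : V ≃ₗ[ZMod p] V) v = g v from rfl, hgv,
        add_sub_cancel_left] at this
      exact (Submodule.smul_mem_iff _ hv).1 this
    · rintro _ ⟨i, rfl⟩; exact hu₀ i
  constructor
  · have hd : Module.finrank (ZMod p) (clsSpan H X) ≤ Module.finrank (ZMod p) Q := by
      rw [(LinearEquiv.ofEq _ _ hS).finrank_eq]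
      exact (finrank_range_le_card u₀).trans (le_of_eq (Fintype.card_fin _))
    have h := Submodule.finrank_quotient_add_finrank (clsRad H X)
    have h' : Module.finrank (ZMod p) Q + Module.finrank (ZMod p) (clsRad H X) =
        Module.finrank (ZMod p) (clsSpan H X) := h
    have h0 : Module.finrank (ZMod p) (clsRad H X) = 0 := by omega
    rw [Submodule.finrank_eq_zero] at h0
    rw [eq_bot_iff]
    rintro r ⟨hr1, hr2⟩
    have : (⟨r, hr1⟩ : clsSpan H X) ∈ clsRad H X := hr2
    rw [h0, Submodule.mem_bot] at this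
    exact (Submodule.mem_bot _).2 (congrArg Subtype.val this)
  · refine eq_top_iff.2 fun v _ => Submodule.mem_sup.2
      ⟨∑ i, A₀ i v • u₀ i, Submodule.sum_mem _ fun i _ => Submodule.smul_mem _ _ (hu₀ i),
        v - ∑ i, A₀ i v • u₀ i, mem_clsFix.2 fun Z hZ => ?_, by abel⟩
    set w := v - ∑ i, A₀ i v • u₀ i with hw
    have hzero : ∀ j, A₀ j w = 0 := by
      intro j
      have e : ∀ i, A₀ j (u₀ i) = if i = j then 1 else 0 := by
        intro i
        show A (o j) j (u i (o i)) = _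
        rw [show u i (o i) = ((⟨u i (o i), hu i (o i) (ho i).symm⟩ : clsSpan H X) : V) from rfl,
          hAb (o j) j (ho j), hub i (o i) (ho i).symm]
        simp [Finsupp.single_apply]
      rw [hw, map_sub, map_sum, sub_eq_zero]
      simp [e]
    obtain ⟨-, g, hg, hgv⟩ := isTv_of_cls hZ
    have := (hgen_move ⟨g, hg⟩ w).2 hzero
    rw [show ((⟨g, hg⟩ : clsGroup H X) : V ≃ₗ[ZMod p] V) w = g w from rfl, hgv, add_eq_left,
      smul_eq_zero] at this
    exact this.resolve_right hZ.1.1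

end Cfsg.Agent.RootSub.Transv
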